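import Cfsg.Agent.R2.E72T.Slt
import Cfsg.Agent.R2.H27.Box
import Cfsg.Agent.ClassicalGeometry.PSL2Basic

/-!
# S5934, box T10: `L₂(128)` (helper7)
-/

set_option autoImplicit false

namespace Cfsg.Agent.R2.E72T

open Cfsg.Agent.R2.H27
open scoped MatrixGroups

universe v

theorem exists_field (m : ℕ) (hm : m ≠ 0) : ∃ (K : Type) (_ : Field K) (_ : Fintype K), Fintype.card K = 2 ^ m := by
  have : Fact (Nat.Prime 2) := ⟨Nat.prime_two⟩
  let F : Fintype (GaloisField 2 m) := Fintype.ofFinite _
  refine ⟨GaloisField 2 m, inferInstance, F, ?_⟩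
  rw [← Nat.card_eq_fintype_card, GaloisField.card 2 m hm]

/-- a simple subgroup from an injective homomorphism -/
theorem simple_range {X G : Type*} [Group X] [Group G] {θ : X →* G} (h : Function.Injective θ) [IsSimpleGroup X] :
    IsSimpleGroup ↥θ.range :=
  (MulEquiv.isSimpleGroup_congr (MonoidHom.ofInjective h)).1 inferInstance

theorem card_range {X G : Type*} [Group X] [Group G] {θ : X →* G} (h : Function.Injective θ) :
    Nat.card ↥θ.range = Nat.card X :=
  (Nat.card_congr (MonoidHom.ofInjective h).toEquiv).symm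

theorem box_T10 : BoxT10 := by
  obtain ⟨K, _, _, hK⟩ := exists_field 7 (by norm_num)
  obtain ⟨θ, hθ⟩ := exists_l2_128 (K := K) (by rw [hK]; norm_num)
  have hc : CharP K 2 := charTwo_of_card hK
  have hs : IsSimpleGroup SL(2, K) := H320.Kill.simple_sl (CharTwo.two_eq_zero)
    (by rw [Nat.card_eq_fintype_card, hK]; norm_num)
  refine ⟨θ.range, simple_range hθ, ?_⟩
  rw [card_range hθ, ClassicalGeometry.PSL2Basic.card_SL2, hK]
  norm_num [oL128]

end Cfsg.Agent.R2.E72T
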