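import Cfsg.Agent.R2.E72T.T2a

/-!
# Box T2 of S5934: `3·²E₆(2)` in `E₇(2)`
-/

set_option autoImplicit false
set_option linter.unusedSectionVars false

namespace Cfsg.Agent.R2.E72T

open Cfsg.Lie Cfsg.Agent.ChevalleyStructure Cfsg.Agent.ChevalleyStructure.Elts
open Cfsg.Agent.ChevalleyStructure.StBasic
open Cfsg.Agent.ChevalleyStructure.StEmbed (ι67 m67 emb67)
open Cfsg.Agent.ChevalleyStructure.SL2Hom (up lo mem_closure_SL2)
open Cfsg.Agent.Nodes.RGDFoldSL Cfsg.Agent.Nodes.RGDChev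
open Cfsg.Agent.H420.PG
open Cfsg.Agent.R2.H27
open scoped MatrixGroups

universe u

/-- the twisted Frobenius map fixes the words -/
theorem fix_word6 {K : Type u} [Field K] [Fintype K] [CharP K 2] (hK : Fintype.card K = 2 ^ 2)
    (w : List (ℕ × K)) (hw : w ∈ e6Words K 2) : sgk K w6 (Θ6 K (wd chevE6 w)) = Θ6 K (wd chevE6 w) := by
  have h0 := w6_E6
  simp only [List.map_cons, List.map_nil, List.cons.injEq, and_true] at h0
  obtain ⟨f1, f2, f3, f4, f5, f6, f7, f8, f9, f10, f11, f12⟩ := h0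
  rcases hw with ⟨t, ht, r, hr, rfl⟩ | ⟨t, rs, hrs, rfl⟩
  · have hr' : r < 72 ∧ w6.foldr chevE7.reflectRoot (ι67 r) = ι67 r := by
      simp only [List.mem_cons, List.not_mem_nil, or_false] at hr
      rcases hr with rfl | rfl | rfl | rfl
      · exact ⟨by decide, f1⟩
      · exact ⟨by decide, f2⟩
      · exact ⟨by decide, f3⟩
      · exact ⟨by decide, f4⟩
    rw [wd_singleton, Θ6_gen hr'.1, sgk_x w6_lt (ι67_lt r hr'.1), hr'.2, ht]
  · obtain ⟨a, b⟩ := rs
    have h1 : a < 72 ∧ b < 72 ∧ w6.foldr chevE7.reflectRoot (ι67 a) = ι67 b ∧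
        w6.foldr chevE7.reflectRoot (ι67 b) = ι67 a ∧ ∀ t u : K, Commute (xG hE7 (ι67 a) t) (xG hE7 (ι67 b) u) := by
      have q1 := okP7a
      have q2 := okP7b
      unfold okP at q1 q2
      simp only [Bool.and_eq_true] at q1 q2
      obtain ⟨n1, n6, n3, n5⟩ := neg67
      rw [n1, n6] at q1
      rw [n3, n5] at q2
      simp only [List.mem_cons, Prod.mk.injEq, List.not_mem_nil, or_false] at hrs
      rcases hrs with ⟨rfl, rfl⟩ | ⟨rfl, rfl⟩ | ⟨rfl, rfl⟩ | ⟨rfl, rfl⟩
      · exact ⟨by decide, by decide, f5, f6, fun t u => comm_of hE7 q1.1 t u⟩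
      · exact ⟨by decide, by decide, f7, f8, fun t u => comm_of hE7 q1.2.2.2 t u⟩
      · exact ⟨by decide, by decide, f9, f10, fun t u => comm_of hE7 q2.1 t u⟩
      · exact ⟨by decide, by decide, f11, f12, fun t u => comm_of hE7 q2.2.2.2 t u⟩
    obtain ⟨ha, hb, e1, e2, hc⟩ := h1
    have e8 : ((t ^ 2) ^ 2 : K) = t := by
      rw [← pow_mul]
      have := FiniteField.pow_card t
      rw [hK] at this
      exact this
    have e0 : Θ6 K (wd chevE6 [((a, b).1, t), ((a, b).2, t ^ 2)]) = xG hE7 (ι67 a) t * xG hE7 (ι67 b) (t ^ 2) := by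
      rw [wd_cons, wd_singleton, map_mul, Θ6_gen ha, Θ6_gen hb]
    rw [e0, map_mul, sgk_x w6_lt (ι67_lt a ha), sgk_x w6_lt (ι67_lt b hb), e1, e2, e8]
    exact (hc t (t ^ 2)).eq.symm

section

variable {K : Type u} [Field K] [Fintype K] [CharP K 2]

theorem card_center6 (hK : Fintype.card K = 2 ^ 2) : Nat.card (Subgroup.center (chevE6.SteinbergGroup K)) = 3 := by
  have h1 := Cfsg.Agent.S1079.result (K := K) (q := 4) (by rw [hK]; norm_num) (chevE6, 3) (by simp)
  have h2 : Nat.card (Subgroup.center (chevE6.SteinbergGroup K)) = Nat.gcd 3 (4 - 1) := h1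
  rw [h2]
  norm_num

theorem simple_quot6 (K : Type u) [Field K] :
    IsSimpleGroup (chevE6.SteinbergGroup K ⧸ Subgroup.center (chevE6.SteinbergGroup K)) := by
  have h1 := (Cfsg.Agent.S1054.result (F := K) chevE6 (by simp)).1
  have e := QuotientGroup.quotientKerEquivOfSurjective (StTheta.theta hE6 K) (StTheta.theta_surjective hE6)
  exact (MulEquiv.isSimpleGroup_congr ((QuotientGroup.quotientMulEquivOfEq
    (Cfsg.Agent.H65.MultE.ker_theta (K := K) hE6).symm).trans e)).2 h1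

/-- a subgroup of order 3 generated by any nontrivial element -/
theorem mem_of_card_three {G : Type*} [Group G] {Z H : Subgroup G} (hZ : Nat.card Z = 3) {z : G} (hz : z ∈ Z)
    (h1 : z ≠ 1) (hH : z ∈ H) : Z ≤ H := by
  intro x hx
  have : Fact (Nat.Prime 3) := ⟨by norm_num⟩
  have h2 := mem_zpowers_of_prime_card (p := 3) hZ (g := (⟨z, hz⟩ : ↥Z)) (g' := ⟨x, hx⟩)
    (fun h => h1 (congrArg Subtype.val h))
  obtain ⟨n, hn⟩ := Subgroup.mem_zpowers_iff.1 h2
  have h3 : z ^ n = x := congrArg Subtype.val hn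
  rw [← h3]
  exact zpow_mem hH n

theorem exists_cube (hK : Fintype.card K = 2 ^ 2) : ∃ t : K, t ^ 3 = 1 ∧ t ≠ 1 := by
  have h1 : ∃ a : K, a ≠ 0 ∧ a ≠ 1 := by
    by_contra h
    push Not at h
    classical
    have h1 : (Finset.univ : Finset K) ⊆ {0, 1} := by
      intro a _
      by_cases h0 : a = 0
      · simp [h0]
      · simp [h a h0]
    have h2 := (Finset.card_le_card h1).trans Finset.card_le_two
    rw [Finset.card_univ, hK] at h2
    norm_num at h2
  obtain ⟨a, ha, ha1⟩ := h1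
  have h2 := FiniteField.pow_card_sub_one_eq_one a ha
  rw [hK] at h2
  exact ⟨a, h2, ha1⟩

theorem Θ6_injective (hK : Fintype.card K = 2 ^ 2) : Function.Injective (Θ6 K) := by
  obtain ⟨t, ht, ht1⟩ := exists_cube hK
  have hne : Θ6 K (chevE6.stGen K e6p1 1) * Θ6 K (chevE6.stGen K e6p3 1) ≠
      Θ6 K (chevE6.stGen K e6p3 1) * Θ6 K (chevE6.stGen K e6p1 1) := by
    rw [Θ6_gen (by decide), Θ6_gen (by decide)]
    intro h
    have h8 := rel (F := K) hE7 nab6 1 1
    rw [List.map_cons, List.map_nil, List.prod_cons, List.prod_nil, mul_one, h] at h8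
    have h9 : xG hE7 94 ((1 : K) ^ 1 * 1 ^ 1) = 1 := by
      have := mul_left_cancel (a := xG hE7 (ι67 e6p3) (1 : K) * xG hE7 (ι67 e6p1) 1) (b := 1)
        (c := xG hE7 94 ((1 : K) ^ 1 * 1 ^ 1)) (by rw [mul_one]; exact h8)
      exact this.symm
    rw [xG_eq_one_iff hE7 (show 94 < chevE7.nroots by decide)] at h9
    simp at h9
  have hk := ker_le_center (simple_quot6 K) hne
  rw [← MonoidHom.ker_eq_bot_iff, eq_bot_iff]
  intro x hx
  by_contra h1
  rw [Subgroup.mem_bot] at h1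
  have h2 := mem_of_card_three (card_center6 hK) (hk hx) h1 hx (zz_mem_center ht)
  exact Θ6_zz_ne ht ht1 h2

theorem cov6 (hK : Fintype.card K = 2 ^ 2) : Cov oTE6 ↥(R6 K) := by
  obtain ⟨t, ht, ht1⟩ := exists_cube hK
  have hfin : Finite (chevE6.SteinbergGroup K) :=
    Cfsg.Agent.H65.MultE.finite_St hE6 (by rw [card_center6 hK]; norm_num)
  have hθ : ∀ x : ↥(R6 K), StTheta.thetaGL hE6 K x ∈ twistedE6 K 2 := by
    intro x
    rw [twistedE6, ← map_stS hE6]
    exact ⟨x, x.2, rfl⟩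
  let ρ : ↥(R6 K) →* ↥(twistedE6 K 2) :=
    ((StTheta.thetaGL hE6 K).comp (R6 K).subtype).codRestrict (twistedE6 K 2) hθ
  have hρ : Function.Surjective ρ := by
    rintro ⟨y, hy⟩
    rw [twistedE6, ← map_stS hE6] at hy
    obtain ⟨x, hx, hxy⟩ := hy
    exact ⟨⟨x, hx⟩, Subtype.ext hxy⟩
  have hcard : Nat.card ↥(twistedE6 K 2) = oTE6 := by
    have h1 := Cfsg.Agent.S1066.result (K := K) (q := 2) Nat.prime_two.isPrimePow hK
    have h2 : Nat.gcd 3 (2 + 1) = 3 := by decide
    rw [h2] at h1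
    unfold oTE6
    norm_num at h1 ⊢
    omega
  have hker : ∀ x : ↥(R6 K), x ∈ ρ.ker ↔ (x : chevE6.SteinbergGroup K) ∈ Subgroup.center (chevE6.SteinbergGroup K) := by
    intro x
    rw [← Cfsg.Agent.H65.MultE.ker_theta (K := K) hE6, MonoidHom.mem_ker, MonoidHom.mem_ker, Subtype.ext_iff,
      Subtype.ext_iff]
    rfl
  have hle : Subgroup.center (chevE6.SteinbergGroup K) ≤ R6 K :=
    mem_of_card_three (card_center6 hK) (zz_mem_center ht) (fun h => Θ6_zz_ne ht ht1 (by rw [h, map_one])) (zz_mem t)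
  refine cov_of_hom hρ (Cfsg.Agent.S1070.result (K := K) (q := 2) Nat.prime_two.isPrimePow hK).1 hcard
    (by norm_num [oTE6]) ?_ ?_ ?_
  · intro x hx
    rw [Subgroup.mem_center_iff]
    intro y
    apply Subtype.ext
    exact Subgroup.mem_center_iff.1 ((hker x).1 hx) y
  · have e : ρ.ker = (Subgroup.center (chevE6.SteinbergGroup K)).subgroupOf (R6 K) := by
      ext x
      rw [hker, Subgroup.mem_subgroupOf]
    rw [e, Nat.card_congr (Subgroup.subgroupOfEquivOfLe hle).toEquiv, card_center6 hK]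
  · -- generated by involutions
    rw [eq_top_iff]
    have key : ∀ x : chevE6.SteinbergGroup K, ∀ hx : x ∈ R6 K,
        (⟨x, hx⟩ : ↥(R6 K)) ∈ Subgroup.closure {g : ↥(R6 K) | g ^ 2 = 1} := by
      intro x hx
      refine Subgroup.closure_induction (p := fun x hx => (⟨x, hx⟩ : ↥(R6 K)) ∈
        Subgroup.closure {g : ↥(R6 K) | g ^ 2 = 1}) ?_ (one_mem _) ?_ ?_ hx
      · rintro x ⟨w, hw, rfl⟩
        apply Subgroup.subset_closure
        apply Subtype.ext
        show wd chevE6 w ^ 2 = 1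
        apply Θ6_injective hK
        rw [map_pow, map_one]
        rcases hw with ⟨t, -, r, hr, rfl⟩ | ⟨t, rs, hrs, rfl⟩
        · have hr' : r < 72 := by
            simp only [List.mem_cons, List.not_mem_nil, or_false] at hr
            rcases hr with rfl | rfl | rfl | rfl <;> decide
          rw [wd_singleton, Θ6_gen hr', sq, xG_add hE7, CharTwo.add_self_eq_zero, xG_zero hE7]
        · obtain ⟨a, b⟩ := rs
          have h1 : a < 72 ∧ b < 72 ∧ ∀ t u : K, Commute (xG hE7 (ι67 a) t) (xG hE7 (ι67 b) u) := by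
            have q1 := okP7a
            have q2 := okP7b
            unfold okP at q1 q2
            simp only [Bool.and_eq_true] at q1 q2
            obtain ⟨n1, n6, n3, n5⟩ := neg67
            rw [n1, n6] at q1
            rw [n3, n5] at q2
            simp only [List.mem_cons, Prod.mk.injEq, List.not_mem_nil, or_false] at hrs
            rcases hrs with ⟨rfl, rfl⟩ | ⟨rfl, rfl⟩ | ⟨rfl, rfl⟩ | ⟨rfl, rfl⟩
            · exact ⟨by decide, by decide, fun t u => comm_of hE7 q1.1 t u⟩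
            · exact ⟨by decide, by decide, fun t u => comm_of hE7 q1.2.2.2 t u⟩
            · exact ⟨by decide, by decide, fun t u => comm_of hE7 q2.1 t u⟩
            · exact ⟨by decide, by decide, fun t u => comm_of hE7 q2.2.2.2 t u⟩
          have e0 : Θ6 K (wd chevE6 [((a, b).1, t), ((a, b).2, t ^ 2)]) = xG hE7 (ι67 a) t * xG hE7 (ι67 b) (t ^ 2) := by
            rw [wd_cons, wd_singleton, map_mul, Θ6_gen h1.1, Θ6_gen h1.2.1]
          rw [e0, (h1.2.2 t (t ^ 2)).mul_pow, sq, sq, xG_add hE7, xG_add hE7, CharTwo.add_self_eq_zero,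
            CharTwo.add_self_eq_zero, xG_zero hE7, xG_zero hE7, one_mul]
      · intro x y hx hy h1 h2
        exact mul_mem h1 h2
      · intro x hx h1
        exact inv_mem h1
    rintro ⟨x, hx⟩ -
    exact key x hx

end

theorem box_T2 : BoxT2 := by
  obtain ⟨K, _, _, hK⟩ := exists_field 2 (by norm_num)
  have hc : CharP K 2 := charTwo_of_card hK
  obtain ⟨e⟩ := isoPk (by norm_num) hK w6_lt w6_pow
  have hmem : ∀ x : ↥(R6 K), Θ6 K x ∈ Pk K w6 := by
    intro x
    rw [mem_Pk]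
    exact ⟨Θ6_mem _, fix_stS _ (fix_word6 hK) x.2⟩
  let j : ↥(R6 K) →* ↥(Pk K w6) := ((Θ6 K).comp (R6 K).subtype).codRestrict (Pk K w6) hmem
  have hj : Function.Injective j := by
    intro x y hxy
    apply Subtype.ext
    exact Θ6_injective hK (congrArg Subtype.val hxy)
  have h1 : Function.Injective (e.toMonoidHom.comp j) := e.injective.comp hj
  exact ⟨_, ((cov6 hK).range h1).sub⟩

end Cfsg.Agent.R2.E72T
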