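import Cfsg.Agent.R2.E72T.Gen

/-!
# The longest element of `W(E₇)` (S5934, box T)
-/

set_option autoImplicit false

namespace Cfsg.Agent.R2.E72T

open Cfsg.Lie

/-- a word of the longest element -/
def wz : List ℕ := [0, 1, 2, 0, 3, 1, 2, 0, 3, 2, 4, 3, 1, 2, 0, 3, 2, 4, 3, 1, 5, 4, 3, 1, 2, 0, 3, 2, 4, 3, 1, 5, 4, 3,
  2, 0, 6, 5, 4, 3, 1, 2, 0, 3, 2, 4, 3, 1, 5, 4, 3, 2, 0, 6, 5, 4, 3, 1, 2, 3, 4, 5, 6]

theorem wz_lt : ∀ i ∈ wz, i < chevE7.rank := by decide +kernel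

theorem wz_neg : ∀ s < 126, wz.foldr chevE7.reflectRoot s = chevE7.neg s := by decide +kernel

theorem neg_neg7 : ∀ s < 126, chevE7.neg (chevE7.neg s) = s ∧ chevE7.neg s < 126 := by decide +kernel

theorem wz_pow : ∀ s < 126, (fun s => wz.foldr chevE7.reflectRoot s)^[2] s = s := by
  intro s hs
  rw [Function.iterate_succ_apply, Function.iterate_one, wz_neg s hs, wz_neg _ (neg_neg7 s hs).2, (neg_neg7 s hs).1]

end Cfsg.Agent.R2.E72T
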