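import Cfsg.Agent.R2.E72T.T5tab
import Cfsg.Agent.R2.E72T.Wz
import Cfsg.Agent.R2.E72T.BoxT10
import Cfsg.Agent.S0249
import Cfsg.Agent.S0279
import Cfsg.Agent.S0280
import Cfsg.Agent.S0283
import Cfsg.Agent.LieClassical.SLGen

/-!
# Box T5 of S5934: `U₈(2)` in `E₇(2)`
-/

set_option autoImplicit false
set_option linter.unusedSectionVars false

namespace Cfsg.Agent.R2.E72T

open Cfsg.Lie Cfsg.Agent.ChevalleyStructure Cfsg.Agent.ChevalleyStructure.Elts
open Cfsg.Agent.H420.PG
open Cfsg.Agent.R2.H27
open Matrix (SpecialLinearGroup)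
open scoped MatrixGroups

universe u

section Tau

variable {K : Type u} [Field K] [CharP K 2] {n : ℕ}

theorem sl_ext {A B : SpecialLinearGroup (Fin n) K} (h : (A : Matrix (Fin n) (Fin n) K) = B) : A = B := Subtype.ext h

/-- the twisted Frobenius map of `SL_n` -/
noncomputable def tauS (n : ℕ) (K : Type u) [Field K] [CharP K 2] :
    SpecialLinearGroup (Fin n) K →* SpecialLinearGroup (Fin n) K where
  toFun A := ((SpecialLinearGroup.map (φk K) A)⁻¹).transpose
  map_one' := by
    rw [map_one, inv_one]
    exact sl_ext Matrix.transpose_one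
  map_mul' A B := by
    rw [map_mul, mul_inv_rev]
    exact sl_ext (Matrix.transpose_mul _ _)

theorem tauS_transvection {a b : Fin n} (hab : a ≠ b) (c : K) :
    tauS n K (SpecialLinearGroup.transvection hab c) = SpecialLinearGroup.transvection hab.symm (c ^ 2) := by
  have h1 : SpecialLinearGroup.map (φk K) (SpecialLinearGroup.transvection hab c) =
      SpecialLinearGroup.transvection hab (c ^ 2) := by
    apply Subtype.ext
    show (SpecialLinearGroup.transvection hab c).1.map (φk K) = (SpecialLinearGroup.transvection hab (c ^ 2)).1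
    show (Matrix.transvection a b c).map (φk K) = Matrix.transvection a b (c ^ 2)
    ext i j
    rw [Matrix.map_apply, Matrix.transvection, Matrix.transvection, Matrix.add_apply, Matrix.add_apply, map_add]
    congr 1
    · rw [Matrix.one_apply]; split_ifs <;> simp
    · rw [Matrix.single_apply, Matrix.single_apply]
      split_ifs
      · exact φk_apply c
      · exact map_zero _
  have h2 : (SpecialLinearGroup.transvection hab (c ^ 2))⁻¹ = SpecialLinearGroup.transvection hab (c ^ 2) := by
    apply inv_eq_of_mul_eq_one_right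
    apply Subtype.ext
    show Matrix.transvection a b (c ^ 2) * Matrix.transvection a b (c ^ 2) = 1
    rw [Matrix.transvection_mul_transvection_same _ _ hab, CharTwo.add_self_eq_zero, Matrix.transvection_zero]
  show ((SpecialLinearGroup.map (φk K) (SpecialLinearGroup.transvection hab c))⁻¹).transpose = _
  rw [h1, h2]
  refine sl_ext ?_
  rw [SpecialLinearGroup.coe_transpose]
  show (Matrix.transvection a b (c ^ 2)).transpose = Matrix.transvection b a (c ^ 2)
  rw [Matrix.transvection, Matrix.transvection, Matrix.transpose_add, Matrix.transpose_one, Matrix.transpose_single]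

/-- **The twisted Frobenius map on the image of `SL_n`.** -/
theorem sgk_phi {r : Fin n → Fin n → ℕ} {φ : SpecialLinearGroup (Fin n) K →* ↥(chevE7.group K)}
    (hφ : ∀ a b (hab : a ≠ b) c, ((φ (SpecialLinearGroup.transvection hab c) : ↥(chevE7.group K)) : GL chevE7.Idx K) =
      xG hE7 (r a b) c) (hr : ∀ a b, a ≠ b → r a b < 126) (hneg : ∀ i j, i ≠ j → r j i = chevE7.neg (r i j))
    (A : SpecialLinearGroup (Fin n) K) : sgk K wz (φ A) = φ (tauS n K A) := by
  let f : SpecialLinearGroup (Fin n) K →* GL chevE7.Idx K := (chevE7.group K).subtype.comp φ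
  have h1 : (⊤ : Subgroup (SpecialLinearGroup (Fin n) K)) ≤ ((sgk K wz).comp f).eqLocus (f.comp (tauS n K)) := by
    rw [← Cfsg.Agent.LieClassical.SLGen.closure_transvections, Subgroup.closure_le]
    rintro _ ⟨a, b, hab, c, rfl⟩
    show sgk K wz (φ (SpecialLinearGroup.transvection hab c)) =
      ((φ (tauS n K (SpecialLinearGroup.transvection hab c)) : ↥(chevE7.group K)) : GL chevE7.Idx K)
    rw [tauS_transvection, hφ, hφ, sgk_x wz_lt (hr a b hab), wz_neg _ (hr a b hab), hneg a b hab]
  exact h1 (Subgroup.mem_top A)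

/-- elements of `SU_n(2)` are fixed -/
theorem tauS_of_mem {A : SpecialLinearGroup (Fin n) K} (hA : A ∈ SU n K 2) : tauS n K A = A := by
  have h1 : A.transpose * SpecialLinearGroup.map (φk K) A = 1 := by
    refine sl_ext ?_
    show A.1.transpose * (SpecialLinearGroup.map (φk K) A).1 = 1
    ext i j
    have h2 := hA (Pi.single i 1) (Pi.single j 1)
    unfold hermForm at h2
    simp only [Matrix.mulVec_single_one] at h2
    rw [Matrix.mul_apply, Matrix.one_apply]
    have h3 : ∀ k, (slToMat n K A).col i k * ((slToMat n K A).col j k) ^ 2 =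
        A.1.transpose i k * (SpecialLinearGroup.map (φk K) A).1 k j := by
      intro k
      show A.1 k i * (A.1 k j) ^ 2 = A.1 k i * φk K (A.1 k j)
      rw [φk_apply]
    rw [Finset.sum_congr rfl fun k _ => h3 k] at h2
    rw [h2]
    by_cases hij : i = j
    · subst hij
      rw [if_pos rfl, Finset.sum_eq_single i]
      · simp
      · intro k _ hk
        rw [Pi.single_eq_of_ne hk, zero_mul]
      · intro h
        exact absurd (Finset.mem_univ i) h
    · rw [if_neg hij]
      refine Finset.sum_eq_zero fun k _ => ?_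
      by_cases hk : k = i
      · subst hk
        rw [Pi.single_eq_of_ne (M := fun _ => K) hij]
        simp
      · rw [Pi.single_eq_of_ne hk, zero_mul]
  have h2 : A.transpose = (SpecialLinearGroup.map (φk K) A)⁻¹ := eq_inv_of_mul_eq_one_left h1
  show ((SpecialLinearGroup.map (φk K) A)⁻¹).transpose = A
  rw [← h2]
  refine sl_ext ?_
  rw [SpecialLinearGroup.coe_transpose, SpecialLinearGroup.coe_transpose, Matrix.transpose_transpose]

end Tau

theorem simple_of_center {G : Type*} [Group G] (h : IsSimpleGroup (G ⧸ Subgroup.center G))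
    (hc : Subgroup.center G = ⊥) : IsSimpleGroup G :=
  (MulEquiv.isSimpleGroup_congr ((QuotientGroup.quotientMulEquivOfEq hc).trans QuotientGroup.quotientBot)).1 h

theorem card_of_center {G : Type*} [Group G] (hc : Subgroup.center G = ⊥) :
    Nat.card (G ⧸ Subgroup.center G) = Nat.card G :=
  Nat.card_congr ((QuotientGroup.quotientMulEquivOfEq hc).trans QuotientGroup.quotientBot).toEquiv

theorem box_T5 : BoxT5 := by
  obtain ⟨K, _, _, hK⟩ := exists_field 2 (by norm_num)
  have hc : CharP K 2 := charTwo_of_card hK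
  obtain ⟨e⟩ := isoPk (by norm_num) hK wz_lt wz_pow
  obtain ⟨φ, hφ⟩ := exists_phi8 K
  obtain ⟨h1, -, -, -, -, h6⟩ := rt8
  -- `SL₈(4)` is simple
  have hcS : Subgroup.center (SpecialLinearGroup (Fin 8) K) = ⊥ := by
    have h2 := Cfsg.Agent.S0280.card_center_SL (K := K) (n := 8) (by norm_num)
    rw [hK] at h2
    exact Subgroup.card_eq_one.1 (h2.trans (by norm_num))
  have hS : IsSimpleGroup (SpecialLinearGroup (Fin 8) K) :=
    simple_of_center (Cfsg.Agent.S0249.result (F := K) 8 (by norm_num)) hcS
  have hφi : Function.Injective φ := by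
    rw [← MonoidHom.ker_eq_bot_iff]
    rcases hS.eq_bot_or_eq_top_of_normal _ (MonoidHom.normal_ker φ) with h2 | h2
    · exact h2
    · exfalso
      have h3 : SpecialLinearGroup.transvection (show (0 : Fin 8) ≠ 1 by decide) (1 : K) ∈ φ.ker := by
        rw [h2]; exact Subgroup.mem_top _
      rw [MonoidHom.mem_ker] at h3
      have h4 := hφ 0 1 (by decide) 1
      rw [h3] at h4
      exact one_ne_zero ((xG_eq_one_iff hE7 (h1 0 1 (by decide)) (1 : K)).1 h4.symm)
  -- `SU₈(2)` is simple
  have hcU : Subgroup.center ↥(SU 8 K 2) = ⊥ := by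
    have h2 := Cfsg.Agent.S0279.result (F := K) (q := 2) hK 8 (by norm_num)
    exact Subgroup.card_eq_one.1 (h2.trans (by norm_num))
  have hU : IsSimpleGroup ↥(SU 8 K 2) :=
    simple_of_center (Cfsg.Agent.S0283.result (F := K) (q := 2) hK 8 (by norm_num) (by norm_num)) hcU
  have hUc : Nat.card ↥(SU 8 K 2) = oU8 := by
    have h2 := Cfsg.Agent.S0280.result (F := K) (q := 2) hK 8 (by norm_num)
    have h3 : Nat.card (PSU 8 K 2) = Nat.card ↥(SU 8 K 2) := card_of_center hcU
    rw [h3] at h2
    simp only [Finset.prod_range_succ, Finset.prod_range_zero] at h2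
    norm_num [Nat.even_iff] at h2
    unfold oU8
    norm_num
    omega
  have hmem : ∀ A : ↥(SU 8 K 2), ((φ A : ↥(chevE7.group K)) : GL chevE7.Idx K) ∈ Pk K wz := by
    intro A
    rw [mem_Pk]
    refine ⟨(φ A).2, ?_⟩
    rw [sgk_phi hφ h1 h6, tauS_of_mem A.2]
  let j : ↥(SU 8 K 2) →* ↥(Pk K wz) :=
    (((chevE7.group K).subtype.comp φ).comp (SU 8 K 2).subtype).codRestrict (Pk K wz) hmem
  have hj : Function.Injective j := by
    intro x y hxy
    apply Subtype.ext
    apply hφi
    apply Subtype.ext
    exact congrArg (fun z : ↥(Pk K wz) => (z : GL chevE7.Idx K)) hxy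
  have hj2 : Function.Injective (e.toMonoidHom.comp j) := e.injective.comp hj
  exact ⟨_, simple_range hj2, (card_range hj2).trans hUc⟩

end Cfsg.Agent.R2.E72T
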