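import Cfsg.Agent.R2.E72T.T9c
import Cfsg.Agent.S1064

/-!
# Box T9 of S5934: `L₂(8) × ³D₄(2)` in `E₇(2)`
-/

set_option autoImplicit false
set_option linter.unusedSectionVars false

namespace Cfsg.Agent.R2.E72T

open Cfsg.Lie Cfsg.Agent.ChevalleyStructure Cfsg.Agent.ChevalleyStructure.Elts
open Cfsg.Agent.ChevalleyStructure.SL2Hom (up lo mem_closure_SL2)
open Cfsg.Agent.Nodes.RGDFoldSL
open Cfsg.Agent.KFacts.RgdChevCoord
open Cfsg.Agent.R2.H27
open Subgroup
open scoped MatrixGroups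

universe u

/-- a finite subgroup without elements of prime order is trivial -/
theorem eq_bot_of_prime {G : Type*} [Group G] [Finite G] {H : Subgroup G}
    (h : ∀ p : ℕ, p.Prime → ∀ g ∈ H, orderOf g = p → False) : H = ⊥ := by
  by_contra hne
  have h1 : Nat.card H ≠ 1 := fun h1 => hne (Subgroup.card_eq_one.1 h1)
  obtain ⟨p, hp, hpd⟩ := Nat.exists_prime_and_dvd h1
  have : Fact p.Prime := ⟨hp⟩
  obtain ⟨g, hg⟩ := exists_prime_orderOf_dvd_card' p hpd
  exact h p hp g g.2 (by rw [Subgroup.orderOf_coe, hg])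

/-- an element of prime order `p ≠ q` with a `q`-power power in `H` lies in `H` -/
theorem mem_of_pow_mem {G : Type*} [Group G] {H : Subgroup G} {g : G} {p q m : ℕ} (hp : p.Prime) (hq : q.Prime)
    (hpq : p ≠ q) (hg : orderOf g = p) (h : g ^ q ^ m ∈ H) : g ∈ H := by
  have h1 : (orderOf g).Coprime (q ^ m) := by
    rw [hg]
    exact Nat.Coprime.pow_right _ ((Nat.coprime_primes hp hq).2 hpq)
  obtain ⟨n, hn⟩ := exists_pow_eq_self_of_coprime h1.symm
  rw [← hn]
  exact pow_mem h n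

theorem center_eq_bot_of_card {G : Type*} [Group G] [Finite G] (h : IsSimpleGroup G) (hc : ¬ (Nat.card G).Prime) :
    center G = ⊥ := by
  rcases h.eq_bot_or_eq_top_of_normal (center G) inferInstance with h1 | h1
  · exact h1
  · exfalso
    let _ : CommGroup G := Group.commGroupOfCenterEqTop h1
    exact hc IsSimpleGroup.prime_card

theorem card_Pk {K : Type} [Field K] [Fintype K] [CharP K 2] {m : ℕ} (hm : 0 < m) (hK : Fintype.card K = 2 ^ m)
    {w : List ℕ} (hw : ∀ i ∈ w, i < chevE7.rank)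
    (hwm : ∀ s < 126, (fun s => w.foldr chevE7.reflectRoot s)^[m] s = s) : Nat.card ↥(Pk K w) = N7 := by
  obtain ⟨e⟩ := isoPk hm hK hw hwm
  rw [Nat.card_congr e.toEquiv]
  have h1 := Cfsg.Agent.S1064.result (F := ZMod 2) (q := 2) (by simp [ZMod.card])
  have h2 : Nat.gcd 2 (2 - 1) = 1 := by decide
  rw [h2, one_mul] at h1
  rw [h1]
  unfold N7
  norm_num

/-- box T9 for an arbitrary group -/
def P9 (G : Type u) [Group G] : Prop := ∃ X Y : Subgroup G, IsSimpleGroup ↥X ∧ Nat.card ↥X = oTD4 ∧ IsSimpleGroup ↥Y ∧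
  Nat.card ↥Y = oL2e ∧ Y ≤ centralizer (X : Set G) ∧ centralizer (X : Set G) ⊓ centralizer (Y : Set G) = ⊥ ∧
  ¬ 17 ∣ Nat.card (centralizer (Y : Set G) : Subgroup G)

theorem P9_of_equiv {G : Type u} {H : Type*} [Group G] [Group H] (e : G ≃* H) (h : P9 G) : P9 H := by
  obtain ⟨X, Y, h1, h2, h3, h4, h5, h6, h7⟩ := h
  refine ⟨X.map e.toMonoidHom, Y.map e.toMonoidHom, simple_map_equiv e X h1, by rw [card_map_equiv, h2],
    simple_map_equiv e Y h3, by rw [card_map_equiv, h4], ?_, ?_, ?_⟩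
  · rw [centralizer_map_equiv]
    exact map_mono h5
  · rw [centralizer_map_equiv, centralizer_map_equiv, ← map_inf _ _ _ e.injective, h6, Subgroup.map_bot]
  · rw [centralizer_map_equiv, card_map_equiv]
    exact h7

section K

variable {K : Type} [Field K] [Fintype K] [CharP K 2]

theorem p9_of_card (hK : Fintype.card K = 2 ^ 3) : P9 ↥(Pk K w3) := by
  have hXP := X9_le hK
  have hYP : (u9 K).range ≤ Pk K w3 := by
    rintro _ ⟨g, rfl⟩
    exact u9_mem hK g
  have hXs : IsSimpleGroup ↥(X9 K) := (MulEquiv.isSimpleGroup_congr (X9Equiv K)).2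
    (Cfsg.Agent.S1071.result (K := K) (q := 2) Nat.prime_two.isPrimePow hK).1
  have hs : IsSimpleGroup SL(2, K) := H320.Kill.simple_sl (CharTwo.two_eq_zero)
    (by rw [Nat.card_eq_fintype_card, hK]; norm_num)
  have hYs : IsSimpleGroup ↥(u9 K).range := simple_range (u9_injective hK)
  have hcX : Nat.card ↥(X9 K) = oTD4 := by
    rw [Nat.card_congr (X9Equiv K).toEquiv, Cfsg.Agent.S1067.result Nat.prime_two.isPrimePow hK]
    norm_num [oTD4]
  have hcY : Nat.card ↥(u9 K).range = oL2e := by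
    rw [card_range (u9_injective hK), ClassicalGeometry.PSL2Basic.card_SL2, hK]
    norm_num [oL2e]
  have hXY : ∀ x ∈ X9 K, ∀ y, x * u9 K y = u9 K y * x := by
    rintro _ ⟨x, -, rfl⟩ y
    exact (Θd_comm_u9 x y).eq
  obtain ⟨a, ha0, ha1⟩ := exists_ne7 hK
  have hcent : ∀ g : ↥(Pk K w3), g ∈ centralizer (((u9 K).range.subgroupOf (Pk K w3) : Subgroup _) : Set ↥(Pk K w3)) →
      ∀ p : ℕ, p.Prime → p ≠ 7 → orderOf g = p →
        (⟨g.1, (mem_Pk.1 g.2).1⟩ : ↥(chevE7.group K)) ∈ D9 K ⊔ TT chevE7 K := by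
    intro g hg p hp hp7 hgp
    rw [mem_centralizer_subgroupOf hYP, mem_centralizer_iff] at hg
    have h1 : (⟨g.1, (mem_Pk.1 g.2).1⟩ : ↥(chevE7.group K)) ∈ centralizer {hh a} := by
      rw [mem_centralizer_singleton_iff]
      exact Subtype.ext (hg _ ⟨hS a, rfl⟩).symm
    obtain ⟨m, hm⟩ := pow_mem9 hK ha0 ha1 h1
    refine mem_of_pow_mem hp (by norm_num) hp7 ?_ hm
    rw [← Subgroup.orderOf_coe]
    show orderOf (g.1 : GL chevE7.Idx K) = p
    rw [Subgroup.orderOf_coe, hgp]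
  refine ⟨(X9 K).subgroupOf (Pk K w3), (u9 K).range.subgroupOf (Pk K w3), ?_, ?_, ?_, ?_, ?_, ?_, ?_⟩
  · exact (MulEquiv.isSimpleGroup_congr (subgroupOfEquivOfLe hXP)).2 hXs
  · rw [Nat.card_congr (subgroupOfEquivOfLe hXP).toEquiv, hcX]
  · exact (MulEquiv.isSimpleGroup_congr (subgroupOfEquivOfLe hYP)).2 hYs
  · rw [Nat.card_congr (subgroupOfEquivOfLe hYP).toEquiv, hcY]
  · intro y hy
    rw [mem_centralizer_subgroupOf hXP, mem_centralizer_iff]
    obtain ⟨z, hz⟩ := (mem_subgroupOf.1 hy : (y : GL chevE7.Idx K) ∈ (u9 K).range)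
    intro x hx
    rw [← hz]
    exact hXY x hx z
  · refine eq_bot_of_prime fun p hp g hg hgp => ?_
    by_cases hp7 : p = 7
    · subst hp7
      have hcX' : Nat.card ↥((X9 K).subgroupOf (Pk K w3)) = oTD4 := by
        rw [Nat.card_congr (subgroupOfEquivOfLe hXP).toEquiv, hcX]
      have hcY' : Nat.card ↥((u9 K).range.subgroupOf (Pk K w3)) = oL2e := by
        rw [Nat.card_congr (subgroupOfEquivOfLe hYP).toEquiv, hcY]
      have h1 := card_mul_dvd_of_centralizer (G := ↥(Pk K w3)) (X := (X9 K).subgroupOf (Pk K w3))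
        (Y := (u9 K).range.subgroupOf (Pk K w3))
        (center_eq_bot_of_card ((MulEquiv.isSimpleGroup_congr (subgroupOfEquivOfLe hXP)).2 hXs)
          (by rw [hcX']; norm_num [oTD4]))
        (center_eq_bot_of_card ((MulEquiv.isSimpleGroup_congr (subgroupOfEquivOfLe hYP)).2 hYs)
          (by rw [hcY']; norm_num [oL2e])) (fun y hy => by
            rw [mem_centralizer_subgroupOf hXP, mem_centralizer_iff]
            obtain ⟨z, hz⟩ := (mem_subgroupOf.1 hy : (y : GL chevE7.Idx K) ∈ (u9 K).range)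
            intro x hx
            rw [← hz]
            exact hXY x hx z) (mem_inf.1 hg).1 (mem_inf.1 hg).2
      rw [hcX', hcY', hgp, card_Pk (by norm_num) hK w3_lt w3_pow] at h1
      norm_num [oTD4, oL2e, N7] at h1
    · have h1 := hcent g (mem_inf.1 hg).2 p hp hp7 hgp
      have h2 := eq_one9 h1 (fun x hx => ?_) (fun y => ?_)
      · have h3 : g = 1 := Subtype.ext (congrArg (fun z : ↥(chevE7.group K) => (z : GL chevE7.Idx K)) h2)
        rw [h3, orderOf_one] at hgp
        exact hp.one_lt.ne hgp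
      · have h3 := (mem_inf.1 hg).1
        rw [mem_centralizer_subgroupOf hXP, mem_centralizer_iff] at h3
        exact (h3 x hx).symm
      · have h3 := (mem_inf.1 hg).2
        rw [mem_centralizer_subgroupOf hYP, mem_centralizer_iff] at h3
        exact (h3 _ ⟨y, rfl⟩).symm
  · intro h
    have : Fact (Nat.Prime 17) := ⟨by norm_num⟩
    obtain ⟨g, hg⟩ := exists_prime_orderOf_dvd_card' 17 h
    have h1 := hcent g.1 g.2 17 (by norm_num) (by norm_num) (by rw [Subgroup.orderOf_coe, hg])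
    have h2 : (17 : ℕ) ∣ Nat.card (D9 K ⊔ TT chevE7 K : Subgroup ↥(chevE7.group K)) := by
      have h3 := orderOf_dvd_natCard (⟨_, h1⟩ : ↥(D9 K ⊔ TT chevE7 K))
      have h4 : orderOf (⟨_, h1⟩ : ↥(D9 K ⊔ TT chevE7 K)) = 17 := by
        rw [← Subgroup.orderOf_coe, ← Subgroup.orderOf_coe]
        show orderOf (g.1.1 : GL chevE7.Idx K) = 17
        rw [Subgroup.orderOf_coe, Subgroup.orderOf_coe, hg]
      rwa [h4] at h3
    have h3 := h2.trans (card_sup_dvd' (TT_le_normalizer (K := K)))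
    rw [card_D9 hK, card_TT hK] at h3
    norm_num at h3

end K

theorem box_T9 : BoxT9 := by
  obtain ⟨K, _, _, hK⟩ := exists_field 3 (by norm_num)
  have hc : CharP K 2 := charTwo_of_card hK
  obtain ⟨e⟩ := isoPk (by norm_num) hK w3_lt w3_pow
  exact P9_of_equiv e (p9_of_card hK)

end Cfsg.Agent.R2.E72T
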