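import Cfsg.Agent.R2.E72T.Grp

/-!
# Triple covers (S5934, box T)
-/

set_option autoImplicit false
set_option linter.unusedSectionVars false

namespace Cfsg.Agent.R2.E72T

open Subgroup
open scoped commutatorElement

theorem center_eq_bot_of_not_prime {G : Type*} [Group G] [Finite G] (h : IsSimpleGroup G) (hc : ¬ (Nat.card G).Prime) :
    center G = ⊥ := by
  rcases h.eq_bot_or_eq_top_of_normal (center G) inferInstance with h1 | h1
  · exact h1
  · exfalso
    let _ : CommGroup G := Group.commGroupOfCenterEqTop h1
    exact hc IsSimpleGroup.prime_card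

theorem commutator_eq_top_of_simple {G : Type*} [Group G] [Finite G] (h : IsSimpleGroup G)
    (hc : ¬ (Nat.card G).Prime) : commutator G = ⊤ := by
  rcases h.eq_bot_or_eq_top_of_normal (commutator G) inferInstance with h1 | h1
  · exfalso
    have h2 : center G = ⊤ := by
      rw [← commutator_eq_bot_iff_center_eq_top]
      exact h1
    rw [center_eq_bot_of_not_prime h hc] at h2
    have := h.toNontrivial
    exact bot_ne_top h2
  · exact h1

/-- the covering group -/
structure Cov (n : ℕ) (R : Type*) [Group R] : Prop where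
  perf : commutator R = ⊤
  simp : IsSimpleGroup (R ⧸ center R)
  card : Nat.card R = 3 * n
  cent : Nat.card (center R) = 3

theorem cov_of_hom {R T : Type*} [Group R] [Finite R] [Group T] {ρ : R →* T} (hρ : Function.Surjective ρ)
    (hT : IsSimpleGroup T) {n : ℕ} (hn : Nat.card T = n) (hp : ¬ n.Prime) (hk : ρ.ker ≤ center R)
    (h3 : Nat.card ρ.ker = 3) (hi : closure {g : R | g ^ 2 = 1} = ⊤) : Cov n R := by
  have : Finite T := Finite.of_surjective ρ hρ
  have hcen : center R = ρ.ker := by
    refine le_antisymm ?_ hk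
    intro g hg
    rw [MonoidHom.mem_ker, ← mem_bot, ← center_eq_bot_of_not_prime hT (by rwa [hn]), mem_center_iff]
    intro x
    obtain ⟨y, rfl⟩ := hρ x
    rw [← map_mul, ← map_mul, mem_center_iff.1 hg y]
  have e : R ⧸ ρ.ker ≃* T := QuotientGroup.quotientKerEquivOfSurjective ρ hρ
  have hcR : Nat.card R = 3 * n := by
    have h1 := card_mul_index ρ.ker
    rw [h3] at h1
    rw [← h1, ← hn]
    congr 1
    exact Nat.card_congr e.toEquiv
  refine ⟨?_, ?_, hcR, by rw [hcen, h3]⟩
  · have hmap : (commutator R).map ρ = ⊤ := by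
      have h1 : (commutator R).map ρ = ⁅(⊤ : Subgroup R).map ρ, (⊤ : Subgroup R).map ρ⁆ := by
        rw [← map_commutator]
        rfl
      rw [h1, map_top_of_surjective ρ hρ]
      exact commutator_eq_top_of_simple hT (by rwa [hn])
    have hsup : ρ.ker ⊔ commutator R = ⊤ := by
      rw [eq_top_iff]
      intro g _
      have h1 : ρ g ∈ (commutator R).map ρ := by rw [hmap]; exact mem_top _
      obtain ⟨c, hc, hcg⟩ := h1
      have h2 : g * c⁻¹ ∈ ρ.ker := by rw [MonoidHom.mem_ker, map_mul, map_inv, hcg, mul_inv_cancel]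
      have h3 : g = g * c⁻¹ * c := by group
      rw [h3]
      exact mul_mem (mem_sup_left h2) (mem_sup_right hc)
    have hidx : (commutator R).index ∣ 3 := by
      have h1 := relIndex_sup_right ρ.ker (commutator R)
      rw [hsup, relIndex_top_right] at h1
      rw [h1, ← h3]
      exact relIndex_dvd_card _ _
    rw [eq_top_iff, ← hi, closure_le]
    intro g hg
    have hg2 : g ^ 2 = 1 := hg
    have h1 : (QuotientGroup.mk' (commutator R) g) ^ 2 = 1 := by rw [← map_pow, hg2, map_one]
    have h2 : orderOf (QuotientGroup.mk' (commutator R) g) ∣ 2 := orderOf_dvd_of_pow_eq_one h1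
    have h4 : orderOf (QuotientGroup.mk' (commutator R) g) ∣ 3 :=
      (_root_.orderOf_dvd_natCard _).trans hidx
    have h5 : orderOf (QuotientGroup.mk' (commutator R) g) = 1 := by
      have := Nat.dvd_gcd h2 h4
      simpa using this
    rw [orderOf_eq_one_iff] at h5
    exact (QuotientGroup.eq_one_iff g).1 h5
  · exact (MulEquiv.isSimpleGroup_congr ((QuotientGroup.quotientMulEquivOfEq hcen).trans e)).2 hT

theorem card_center_congr {G H : Type*} [Group G] [Group H] (e : G ≃* H) :
    Nat.card (center G) = Nat.card (center H) :=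
  Nat.card_congr (Subgroup.centerCongr e).toEquiv

theorem map_center_equiv {G H : Type*} [Group G] [Group H] (e : G ≃* H) :
    (center G).map (e : G →* H) = center H := by
  ext h
  constructor
  · rintro ⟨g, hg, rfl⟩
    rw [mem_center_iff]
    intro x
    obtain ⟨y, rfl⟩ := e.surjective x
    show e y * e g = e g * e y
    rw [← map_mul, mem_center_iff.1 hg y, map_mul]
  · intro hh
    refine ⟨e.symm h, ?_, e.apply_symm_apply h⟩
    rw [SetLike.mem_coe, mem_center_iff]
    intro x
    apply e.injective
    rw [map_mul, map_mul, e.apply_symm_apply]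
    exact mem_center_iff.1 hh (e x)

theorem Cov.congr {G H : Type*} [Group G] [Group H] {n : ℕ} (e : G ≃* H) (h : Cov n G) : Cov n H where
  perf := by
    have h1 : (commutator G).map (e : G →* H) = commutator H := by
      show (⁅(⊤ : Subgroup G), ⊤⁆ : Subgroup G).map _ = ⁅(⊤ : Subgroup H), ⊤⁆
      rw [map_commutator, map_top_of_surjective _ e.surjective]
    rw [← h1, h.perf, map_top_of_surjective _ e.surjective]
  simp := (MulEquiv.isSimpleGroup_congr (QuotientGroup.congr (center G) (center H) e (map_center_equiv e))).1 h.simp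
  card := by rw [← Nat.card_congr e.toEquiv, h.card]
  cent := by rw [← card_center_congr e, h.cent]

/-- the subgroup version -/
theorem Cov.sub {G : Type*} [Group G] {X : Subgroup G} {n : ℕ} (h : Cov n ↥X) :
    ⁅X, X⁆ = X ∧ IsSimpleGroup (↥X ⧸ center ↥X) ∧ Nat.card ↥X = 3 * n ∧ Nat.card ↥(center ↥X) = 3 := by
  refine ⟨?_, h.simp, h.card, h.cent⟩
  have h1 : (commutator ↥X).map X.subtype = ⁅X, X⁆ := by
    show (⁅(⊤ : Subgroup ↥X), ⊤⁆ : Subgroup ↥X).map _ = _
    rw [map_commutator, ← MonoidHom.range_eq_map, range_subtype]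
  rw [← h1, h.perf, ← MonoidHom.range_eq_map, range_subtype]

/-- the range of an injective homomorphism -/
theorem Cov.range {R G : Type*} [Group R] [Group G] {n : ℕ} {j : R →* G} (hj : Function.Injective j) (h : Cov n R) :
    Cov n ↥j.range := h.congr (MonoidHom.ofInjective hj)

end Cfsg.Agent.R2.E72T
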