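import Cfsg.Agent.R2.E72T.Sub
import Cfsg.Agent.R2.E72T.Base
import Cfsg.Agent.ChevalleyStructure.StTorus
import Cfsg.Agent.S1077
import Cfsg.Agent.S1097
import Cfsg.Agent.S1032
import Cfsg.Agent.S1033
import Cfsg.Agent.S1054
import Cfsg.Agent.S1061
import Cfsg.Agent.S1067
import Cfsg.Agent.S1071
import Cfsg.Agent.H65.MultE
import Cfsg.Agent.R2.E72T.Tws

/-!
# The subsystem `D₄` of `E₇` in characteristic 2 (S5934, box T)
-/

set_option autoImplicit false
set_option linter.unusedSectionVars false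

namespace Cfsg.Agent.R2.E72T

open Cfsg.Lie Cfsg.Agent.ChevalleyStructure Cfsg.Agent.ChevalleyStructure.Elts
open Cfsg.Agent.ChevalleyStructure.StBasic Cfsg.Agent.ChevalleyStructure.StTorus
open Cfsg.Agent.H420.PG

universe u v

/-- the roots of the subsystem `D₄` -/
def l4 : List ℕ := [38, 41, 45, 42, 46, 47, 50, 55, 51, 56, 59, 52, 73, 66, 69, 74, 70, 75, 78, 79, 83, 80, 84, 87]

/-- `D₄ → E₇` on indices -/
def τ4 (r : ℕ) : ℕ := l4.getD r 0

theorem sub4 : SubOK chevD4 chevE7 τ4 where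
  row := by decide +kernel

theorem goodD4_0 : GoodSimple chevD4 0 :=
  ⟨by decide +kernel, ⟨6, 22, 1, by decide +kernel⟩, ⟨1, 17, 1, by decide +kernel⟩, by decide +kernel⟩

theorem goodD4_1 : GoodSimple chevD4 1 :=
  ⟨by decide +kernel, ⟨1, 23, -1, by decide +kernel⟩, ⟨0, 22, -1, by decide +kernel⟩, by decide +kernel⟩

theorem goodD4_2 : GoodSimple chevD4 2 :=
  ⟨by decide +kernel, ⟨3, 22, -1, by decide +kernel⟩, ⟨1, 20, -1, by decide +kernel⟩, by decide +kernel⟩

theorem goodD4_3 : GoodSimple chevD4 3 :=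
  ⟨by decide +kernel, ⟨2, 22, -1, by decide +kernel⟩, ⟨1, 21, -1, by decide +kernel⟩, by decide +kernel⟩

theorem simple_ltD4 : ∀ i < chevD4.rank, chevD4.simple i < chevD4.nroots := by decide +kernel

theorem goodD4 (i : ℕ) (hi : i < chevD4.rank) : GoodSimple chevD4 i := by
  change i < 4 at hi
  interval_cases i
  · exact goodD4_0
  · exact goodD4_1
  · exact goodD4_2
  · exact goodD4_3

theorem exists_PhiD4 (K : Type v) [Field K] :
    ∃ Φ : (Fin chevD4.rank → Kˣ) →* chevD4.SteinbergGroup K,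
      Subgroup.center (chevD4.SteinbergGroup K) ≤ Φ.range ∧
      (∀ t, Φ t ∈ Subgroup.center (chevD4.SteinbergGroup K) ↔
        ∀ s < chevD4.nroots, ∏ i : Fin chevD4.rank, t i ^ chevD4.cartan i s = 1) := by
  have hD7 : chevD4 ∈ [chevG2, chevB2, chevD4, chevF4, chevE6, chevE7, chevE8] := by simp
  obtain ⟨θ, -, hker, hθ⟩ := Cfsg.Agent.S1077.result (K := K) chevD4 hD7
  have hconj : ∀ (i s : ℕ), i < chevD4.rank → s < chevD4.nroots → ∀ (c : K), c ≠ 0 → ∀ t : K,
      chevD4.hMat K (chevD4.simple i) c * chevD4.x K s t =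
        chevD4.x K s (c ^ (chevD4.cartan i s) * t) * chevD4.hMat K (chevD4.simple i) c :=
    fun i s hi hsn c hc t => Cfsg.Agent.S1032.result chevD4 hD7 i s hi hsn c hc t
  have hdiag : ∀ (i : ℕ), i < chevD4.rank → ∀ (c : K), c ≠ 0 → chevD4.hMat K (chevD4.simple i) c =
      Matrix.diagonal (Sum.elim (fun _ => (1 : K)) (fun s : Fin chevD4.nroots => c ^ (chevD4.cartan i s))) :=
    fun i hi c hc => Cfsg.Agent.S1033.result chevD4 hD7 i hi c hc
  have hcomm := pairwise_commute θ hker hθ hconj simple_ltD4 (fun i j hi _ _ => Or.inl (goodD4 i hi))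
  refine ⟨Phi simple_ltD4 hcomm, ?_, ?_⟩
  · rw [← hker]
    exact (Cfsg.Agent.S1097.result chevD4 hD7 θ hθ).trans (closure_le_range_Phi simple_ltD4 hcomm)
  · intro t
    rw [← hker]
    exact Phi_mem_ker_iff θ hθ hdiag simple_ltD4 hcomm t

/-- twice the inverse Cartan matrix -/
def bD4 : Fin 4 → Fin 4 → ℤ := ![![2, 2, 1, 1], ![2, 4, 2, 2], ![1, 2, 2, 1], ![1, 2, 1, 2]]

theorem bD4_spec : ∀ i k : Fin 4, ∑ j : Fin 4, chevD4.cartan i (chevD4.simple j) * bD4 j k =
    if (i : ℕ) = (k : ℕ) then 2 else 0 := by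
  decide +kernel

/-- **In characteristic 2 the Steinberg group of type `D₄` has trivial centre.** -/
theorem center_stD4 (K : Type v) [Field K] [CharP K 2] : Subgroup.center (chevD4.SteinbergGroup K) = ⊥ := by
  obtain ⟨Φ, hle, hiff⟩ := exists_PhiD4 K
  rw [eq_bot_iff]
  intro z hz
  obtain ⟨t, rfl⟩ := hle hz
  rw [hiff] at hz
  have ht : t = 1 := by
    funext k
    have h1 : ∏ i : Fin chevD4.rank, t i ^ (if (i : ℕ) = (k : ℕ) then (2 : ℤ) else 0) = 1 :=
      eval_eq_one (n := chevD4.rank) (m := chevD4.rank)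
        (fun i j => chevD4.cartan i (chevD4.simple j)) (fun j => bD4 j k)
        (fun i => if (i : ℕ) = (k : ℕ) then 2 else 0) (fun i => bD4_spec i k) t
        (fun j => hz (chevD4.simple j) (simple_ltD4 j j.2))
    rw [Finset.prod_eq_single k] at h1
    · rw [if_pos rfl] at h1
      have h2 : ((t k : Kˣ) : K) ^ 2 = 1 := by
        have := congrArg Units.val h1
        rw [Units.val_one, Units.val_zpow_eq_zpow_val] at this
        exact_mod_cast this
      apply Units.ext
      have h3 : (((t k : Kˣ) : K) - 1) ^ 2 = 0 := by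
        rw [sub_sq, h2, one_pow, mul_one]
        have h4 : (2 : K) = 0 := CharTwo.two_eq_zero
        rw [h4, zero_mul, sub_zero, one_add_one_eq_two, h4]
      exact sub_eq_zero.1 (pow_eq_zero_iff two_ne_zero |>.1 h3)
    · intro i _ hi
      rw [if_neg (fun h => hi (Fin.ext h)), zpow_zero]
    · intro h
      exact absurd (Finset.mem_univ _) h
  rw [ht, map_one]
  exact one_mem _

theorem hD4 : InList chevD4 := by simp

/-- **In characteristic 2 the Steinberg group of type `D₄` is the Chevalley group.** -/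
theorem thetaD4_injective (K : Type v) [Field K] [CharP K 2] : Function.Injective (StTheta.thetaGL hD4 K) := by
  rw [← MonoidHom.ker_eq_bot_iff, eq_bot_iff]
  have h1 := Cfsg.Agent.H65.MultE.ker_theta (K := K) hD4
  rw [center_stD4] at h1
  intro x hx
  have h2 : x ∈ (StTheta.theta hD4 K).ker := by
    rw [MonoidHom.mem_ker]
    apply Subtype.ext
    rw [StTheta.coe_theta]
    exact hx
  rw [h1] at h2
  exact h2

section Hom

variable {K : Type v} [Field K] [CharP K 2] {k : Type u} [Field k] [CharP k 2] (f : K →+* k)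

theorem simple_stD4 (K : Type v) [Field K] [CharP K 2] : IsSimpleGroup (chevD4.SteinbergGroup K) := by
  have h1 := (Cfsg.Agent.S1054.result (F := K) chevD4 (by simp)).1
  have hb : Function.Bijective (StTheta.theta hD4 K) := by
    refine ⟨?_, StTheta.theta_surjective hD4⟩
    intro a b hab
    apply thetaD4_injective K
    exact congrArg Subtype.val hab
  exact (MulEquiv.isSimpleGroup_congr (MulEquiv.ofBijective _ hb)).2 h1

/-- the subsystem homomorphism of `D₄` -/
noncomputable def Θ4 : chevD4.SteinbergGroup K →* GL chevE7.Idx k := subHom sub4 hE7 f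

theorem Θ4_injective : Function.Injective (Θ4 (k := k) f) := by
  have hs := simple_stD4 K
  rw [← MonoidHom.ker_eq_bot_iff]
  rcases hs.eq_bot_or_eq_top_of_normal _ (MonoidHom.normal_ker (Θ4 (k := k) f)) with h1 | h1
  · exact h1
  · exfalso
    have h2 : chevD4.stGen K 0 1 ∈ (Θ4 (k := k) f).ker := by rw [h1]; exact Subgroup.mem_top _
    rw [MonoidHom.mem_ker, Θ4, subHom_stGen sub4 hE7 f (by decide), map_one,
      xG_eq_one_iff hE7 (by decide)] at h2
    exact one_ne_zero h2

end Hom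

end Cfsg.Agent.R2.E72T
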