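import Cfsg.Agent.R2.E72T.Slt
import Cfsg.Agent.H904.E7Main

/-!
# The fixed points of a twisted Frobenius map in `E₇(K)`, `K` finite of characteristic 2 (S5934, box T)

* `sgk k w` : the twisted Frobenius map on `GL` over a field `k` of characteristic 2;
* `isoPk` : if `w ^ m = 1`, `|K| = 2 ^ m`, then the fixed points of `sgk K w` in `E₇(K)` form the group `E₇(2)`.
-/

set_option autoImplicit false
set_option linter.unusedSectionVars false

namespace Cfsg.Agent.R2.E72T

open Cfsg.Lie Cfsg.Agent.ChevalleyStructure Cfsg.Agent.ChevalleyStructure.Elts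
open Cfsg.Agent.ChevalleyStructure.SL2Hom (up lo mem_closure_SL2)
open Cfsg.Agent.Nodes.RGDFoldSL Cfsg.Agent.Nodes.RGDChev
open Cfsg.Agent.GpExc.Field (glMap coe_glMap glMap_xG glMap_nG glMap_injective emb emb_injective coe_emb glMap_mem)
open Cfsg.Agent.H420.PG
open scoped MatrixGroups

universe u v

section K

variable {k : Type u} [Field k] [CharP k 2]

/-- the Frobenius map -/
noncomputable abbrev φk (k : Type u) [Field k] [CharP k 2] : k →+* k := iterateFrobenius k 2 1

theorem φk_apply (a : k) : φk k a = a ^ 2 := by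
  rw [φk, iterateFrobenius_def, pow_one]

/-- the twisted Frobenius map belonging to a word -/
noncomputable def sgk (k : Type u) [Field k] [CharP k 2] (w : List ℕ) : GL chevE7.Idx k →* GL chevE7.Idx k :=
  tsig chevE7 (φk k) (nwd hE7 w)

/-- its fixed points -/
noncomputable def Pk (k : Type u) [Field k] [CharP k 2] (w : List ℕ) : Subgroup (GL chevE7.Idx k) :=
  PF chevE7 (φk k) (nwd hE7 w)

theorem mem_Pk {w : List ℕ} {g : GL chevE7.Idx k} : g ∈ Pk k w ↔ g ∈ chevE7.group k ∧ sgk k w g = g := Iff.rfl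

theorem sgk_x {w : List ℕ} (hw : ∀ i ∈ w, i < chevE7.rank) {s : ℕ} (hs : s < 126) (t : k) :
    sgk k w (xG hE7 s t) = xG hE7 (w.foldr chevE7.reflectRoot s) (t ^ 2) := by
  rw [sgk, tsig_apply, glMap_xG, ← φk_apply]
  exact (nwd_conj hE7 hw (show s < chevE7.nroots from hs) _).1

theorem sgk_ps {w : List ℕ} (hw : ∀ i ∈ w, i < chevE7.rank) {r s : ℕ} (hr : r < 126)
    (h1 : w.foldr chevE7.reflectRoot r = s) (h2 : w.foldr chevE7.reflectRoot (chevE7.neg r) = chevE7.neg s)
    (hs : s < 126) (g : SL(2, k)) :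
    sgk k w (psi hE7 k r g) = psi hE7 k s (Matrix.SpecialLinearGroup.map (φk k) g) := by
  subst h1
  exact tsig_psi (ρ := w.foldr chevE7.reflectRoot) hE7 (show r < chevE7.nroots from hr)
    (show w.foldr chevE7.reflectRoot r < chevE7.nroots from hs) h2.symm
    (fun t => by rw [sgk_x hw hr, φk_apply]) (fun t => by rw [sgk_x hw (neg_lt7 hr), φk_apply]) g

/-! ### the order of `nwd w` -/

theorem nwd_pow_conj {w : List ℕ} (hw : ∀ i ∈ w, i < chevE7.rank) (m : ℕ) {s : ℕ} (hs : s < 126) (t : k) :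
    nwd hE7 w ^ m * xG hE7 s t * (nwd hE7 w ^ m)⁻¹ = xG hE7 ((fun s => w.foldr chevE7.reflectRoot s)^[m] s) t ∧
      (fun s => w.foldr chevE7.reflectRoot s)^[m] s < 126 := by
  induction m generalizing s with
  | zero => exact ⟨by simp, hs⟩
  | succ m ih =>
    have h1 := nwd_conj (F := k) hE7 hw (show s < chevE7.nroots from hs) t
    obtain ⟨h2, h3⟩ := ih (s := w.foldr chevE7.reflectRoot s) h1.2
    rw [Function.iterate_succ_apply]
    refine ⟨?_, h3⟩
    rw [← h2, ← h1.1, pow_succ]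
    group

theorem comm_of_fix {n : GL chevE7.Idx k} (h : ∀ s < 126, ∀ t : k, n * xG hE7 s t * n⁻¹ = xG hE7 s t)
    {g : GL chevE7.Idx k} (hg : g ∈ chevE7.group k) : n * g = g * n := by
  have h1 : chevE7.group k ≤ Subgroup.centralizer {n} := by
    rw [group_le_iff hE7]
    intro r hr t
    rw [Subgroup.mem_centralizer_singleton_iff]
    have h2 := h r hr t
    rw [mul_inv_eq_iff_eq_mul] at h2
    exact h2.symm
  exact (Subgroup.mem_centralizer_singleton_iff.1 (h1 hg)).symm

theorem nwd_pow_eq_one {w : List ℕ} (hw : ∀ i ∈ w, i < chevE7.rank) {m : ℕ}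
    (hm : ∀ s < 126, (fun s => w.foldr chevE7.reflectRoot s)^[m] s = s) : (nwd hE7 w : GL chevE7.Idx k) ^ m = 1 := by
  have hmem : (nwd hE7 w : GL chevE7.Idx k) ^ m ∈ chevE7.group k := pow_mem (nwd_mem hE7 w) m
  have h1 : (⟨nwd hE7 w ^ m, hmem⟩ : ↥(chevE7.group k)) ∈ Subgroup.center ↥(chevE7.group k) := by
    rw [Subgroup.mem_center_iff]
    rintro ⟨g, hg⟩
    apply Subtype.ext
    refine (comm_of_fix (fun s hs t => ?_) hg).symm
    have h2 := (nwd_pow_conj (k := k) hw m hs t).1
    rwa [hm s hs] at h2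
  rw [Cfsg.Agent.H904.E7Main.center_eq_bot k, Subgroup.mem_bot] at h1
  exact congrArg Subtype.val h1

theorem glMap_nwd {K : Type v} [Field K] [CharP K 2] (f : K →+* k) (w : List ℕ) :
    glMap chevE7 f (nwd hE7 w) = nwd hE7 w := by
  unfold nwd
  rw [map_list_prod, List.map_map]
  congr 1
  refine List.map_congr_left fun i _ => ?_
  rw [Function.comp_apply]
  have h1 := glMap_nG hp7 f (chevE7.simple i) 1
  rw [map_one] at h1
  exact h1

theorem glMap_glMap {K : Type v} [Field K] {L : Type*} [Field L] (f : K →+* k) (g : L →+* K) (x : GL chevE7.Idx L) :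
    glMap chevE7 f (glMap chevE7 g x) = glMap chevE7 (f.comp g) x := by
  apply Units.ext
  rw [coe_glMap, coe_glMap, coe_glMap]
  ext i j
  rfl

theorem glMap_congr {K : Type v} [Field K] {f g : K →+* k} (h : ∀ a, f a = g a) (x : GL chevE7.Idx K) :
    glMap chevE7 f x = glMap chevE7 g x := by
  have : f = g := RingHom.ext h
  rw [this]

theorem sgk_iterate {w : List ℕ} (m : ℕ) (g : GL chevE7.Idx k) :
    (sgk k w)^[m] g = nwd hE7 w ^ m * glMap chevE7 (iterateFrobenius k 2 m) g * (nwd hE7 w ^ m)⁻¹ := by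
  induction m with
  | zero =>
    rw [Function.iterate_zero_apply, pow_zero, one_mul, inv_one, mul_one]
    apply Units.ext
    rw [coe_glMap]
    ext i j
    show _ = iterateFrobenius k 2 0 _
    rw [iterateFrobenius_def, pow_zero, pow_one]
  | succ m ih =>
    rw [Function.iterate_succ_apply', ih, sgk, tsig_apply, map_mul, map_mul, map_inv, map_pow, glMap_nwd,
      glMap_glMap, glMap_congr (g := iterateFrobenius k 2 (m + 1)) (fun a => by
        rw [RingHom.comp_apply, iterateFrobenius_def, iterateFrobenius_def, iterateFrobenius_def, ← pow_mul,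
          ← pow_add]), pow_succ']
    group

end K

/-! ### the isomorphism -/

section Iso

variable {K : Type} [Field K] [CharP K 2] [Fintype K]

theorem glMap_sgk (f : K →+* KK) (w : List ℕ) (g : GL chevE7.Idx K) :
    glMap chevE7 f (sgk K w g) = sg w (glMap chevE7 f g) := by
  rw [sgk, tsig_apply, map_mul, map_mul, map_inv, glMap_nwd, glMap_glMap, sg, tsig_apply, glMap_glMap]
  congr 2
  refine glMap_congr (fun a => ?_) g
  rw [RingHom.comp_apply, RingHom.comp_apply, iterateFrobenius_def, iterateFrobenius_def, map_pow]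

theorem exists_sqrt (a : K) : ∃ b : K, b ^ 2 = a := by
  obtain ⟨b, hb⟩ := (frobenius_bijective K 2).2 a
  exact ⟨b, by rw [← hb, frobenius_def]⟩
where
  frobenius_bijective (K : Type) [Field K] [Finite K] (p : ℕ) [Fact p.Prime] [CharP K p] :
      Function.Bijective (frobenius K p) := (Finite.injective_iff_bijective).1 (frobenius_inj K p)

/-- **`E₇(2)` in `E₇(K)`.** -/
theorem isoPk {m : ℕ} (hm : 0 < m) (hK : Fintype.card K = 2 ^ m) {w : List ℕ} (hw : ∀ i ∈ w, i < chevE7.rank)
    (hwm : ∀ s < 126, (fun s => w.foldr chevE7.reflectRoot s)^[m] s = s) :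
    Nonempty (↥(Pk K w) ≃* ↥(chevE7.group (ZMod 2))) := by
  obtain ⟨f⟩ := exists_emb K
  obtain ⟨e⟩ := isoW w
  have hη : ∀ g : ↥(Pk K w), glMap chevE7 f (g : GL chevE7.Idx K) ∈ PW w := by
    intro g
    obtain ⟨h1, h2⟩ := mem_Pk.1 g.2
    rw [mem_PW]
    exact ⟨glMap_mem hE7 f h1, by rw [← glMap_sgk, h2]⟩
  let η : ↥(Pk K w) →* ↥(PW w) := ((glMap chevE7 f).comp (Pk K w).subtype).codRestrict (PW w) hη
  have hηi : Function.Injective η := by
    intro a b hab
    exact Subtype.ext (glMap_injective chevE7 f (congrArg Subtype.val hab))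
  have hηs : Function.Surjective η := by
    rintro ⟨y, hy⟩
    obtain ⟨hy1, hy2⟩ := mem_PW.1 hy
    have h1 : (sgk KK w)^[m] y = y := Function.iterate_fixed hy2 m
    rw [sgk_iterate, nwd_pow_eq_one hw hwm, one_mul, inv_one, mul_one] at h1
    have h2 : Cfsg.Agent.H129.TorusUntw.phi chevE7 KK 2 m ⟨y, hy1⟩ = ⟨y, hy1⟩ := by
      apply Subtype.ext
      rw [Cfsg.Agent.H129.TorusUntw.coe_phi]
      exact h1
    obtain ⟨x, hx⟩ := Cfsg.Agent.H129.TorusUntw.fix_range hp7 CoxeterMatrix.E₇.toCoxeterSystem f hK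
      Cfsg.Agent.H129.TorusChar.invC_E7 two_ne_zero exists_sqrt h2
    have h3 : glMap chevE7 f (x : GL chevE7.Idx K) = y := congrArg Subtype.val hx
    have h4 : (x : GL chevE7.Idx K) ∈ Pk K w := by
      rw [mem_Pk]
      refine ⟨x.2, glMap_injective chevE7 f ?_⟩
      rw [glMap_sgk, h3]
      exact hy2
    exact ⟨⟨x, h4⟩, Subtype.ext h3⟩
  exact ⟨(MulEquiv.ofBijective η ⟨hηi, hηs⟩).trans e⟩

end Iso

end Cfsg.Agent.R2.E72T
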