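import Mathlib

/-!
# Small facts of group theory (S5934, box T)
-/

set_option autoImplicit false

namespace Cfsg.Agent.R2.E72T

open Subgroup

section

variable {G : Type*} [Group G] [Finite G]

theorem card_mul_relIndex' {H K : Subgroup G} (h : H ≤ K) : Nat.card H * H.relIndex K = Nat.card K := by
  rw [Subgroup.relIndex, ← Nat.card_congr (Subgroup.subgroupOfEquivOfLe h).toEquiv]
  exact Subgroup.card_mul_index _

/-- `|K H|` divides `|K| |H|` -/
theorem card_sup_dvd' {K H : Subgroup G} (h : H ≤ normalizer (K : Set G)) :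
    Nat.card (K ⊔ H : Subgroup G) ∣ Nat.card K * Nat.card H := by
  have hKn : (K.subgroupOf (K ⊔ H)).Normal :=
    normal_subgroupOf_of_le_normalizer (sup_le le_normalizer h)
  have h1 := relIndex_sup_left (H.subgroupOf (K ⊔ H)) (K.subgroupOf (K ⊔ H))
  rw [← Subgroup.subgroupOf_sup le_sup_left le_sup_right, Subgroup.subgroupOf_self,
    Subgroup.relIndex_subgroupOf le_sup_right, relIndex_top_right] at h1
  have h2 : Nat.card K * K.relIndex H = Nat.card (K ⊔ H : Subgroup G) := by
    rw [← h1]
    exact card_mul_relIndex' le_sup_left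
  rw [← h2]
  exact Nat.mul_dvd_mul dvd_rfl (Subgroup.relIndex_dvd_card _ _)

end

section Transport

variable {G H : Type*} [Group G] [Group H] (e : G ≃* H)

theorem centralizer_map_equiv (X : Subgroup G) :
    centralizer ((X.map e.toMonoidHom : Subgroup H) : Set H) = (centralizer (X : Set G)).map e.toMonoidHom := by
  ext h
  constructor
  · intro hh
    refine ⟨e.symm h, ?_, e.apply_symm_apply h⟩
    rw [SetLike.mem_coe, mem_centralizer_iff]
    intro x hx
    have h1 := mem_centralizer_iff.1 hh (e x) ⟨x, hx, rfl⟩
    apply e.injective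
    rw [map_mul, map_mul, e.apply_symm_apply]
    exact h1
  · rintro ⟨g, hg, rfl⟩
    rw [mem_centralizer_iff]
    rintro _ ⟨x, hx, rfl⟩
    have h1 := mem_centralizer_iff.1 hg x hx
    show e x * e g = e g * e x
    rw [← map_mul, h1, map_mul]

theorem centralizer_singleton_map_equiv (x : G) :
    centralizer ({e x} : Set H) = (centralizer ({x} : Set G)).map e.toMonoidHom := by
  ext h
  constructor
  · intro hh
    refine ⟨e.symm h, ?_, e.apply_symm_apply h⟩
    rw [SetLike.mem_coe, mem_centralizer_singleton_iff]
    have h1 := mem_centralizer_singleton_iff.1 hh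
    apply e.injective
    rw [map_mul, map_mul, e.apply_symm_apply]
    exact h1
  · rintro ⟨g, hg, rfl⟩
    rw [mem_centralizer_singleton_iff]
    have h1 := mem_centralizer_singleton_iff.1 hg
    show e g * e x = e x * e g
    rw [← map_mul, h1, map_mul]

theorem card_map_equiv (X : Subgroup G) : Nat.card ↥(X.map e.toMonoidHom) = Nat.card ↥X :=
  (Nat.card_congr (X.equivMapOfInjective e.toMonoidHom e.injective).toEquiv).symm

theorem simple_map_equiv (X : Subgroup G) (h : IsSimpleGroup ↥X) : IsSimpleGroup ↥(X.map e.toMonoidHom) :=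
  (MulEquiv.isSimpleGroup_congr (X.equivMapOfInjective e.toMonoidHom e.injective)).1 h

/-- a subgroup of a subgroup, as an abstract group -/
noncomputable def subOfEquiv {P X : Subgroup G} (h : X ≤ P) : ↥(X.subgroupOf P) ≃* ↥X := subgroupOfEquivOfLe h

theorem mem_centralizer_subgroupOf {P X : Subgroup G} (h : X ≤ P) {g : ↥P} :
    g ∈ centralizer ((X.subgroupOf P : Subgroup ↥P) : Set ↥P) ↔ (g : G) ∈ centralizer (X : Set G) := by
  rw [mem_centralizer_iff, mem_centralizer_iff]
  constructor
  · intro h1 x hx
    exact congrArg Subtype.val (h1 ⟨x, h hx⟩ (mem_subgroupOf.2 hx))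
  · intro h1 x hx
    exact Subtype.ext (h1 x (mem_subgroupOf.1 hx))

end Transport

section Seven

variable {G : Type*} [Group G] [Finite G]

/-- If `X`, `Y` commute, have trivial centres and an element of order `p` centralises both, then `|X| |Y| p`
divides `|G|`. -/
theorem card_mul_dvd_of_centralizer {X Y : Subgroup G} (hX : center ↥X = ⊥) (hY : center ↥Y = ⊥)
    (hXY : Y ≤ centralizer (X : Set G)) {c : G} (hc : c ∈ centralizer (X : Set G)) (hc' : c ∈ centralizer (Y : Set G)) :
    Nat.card X * Nat.card Y * orderOf c ∣ Nat.card G := by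
  have c1 : ∀ x ∈ X, ∀ y ∈ Y, x * y = y * x := fun x hx y hy => mem_centralizer_iff.1 (hXY hy) x hx
  have c2 : ∀ x ∈ X, ∀ z ∈ zpowers c, x * z = z * x := by
    intro x hx z hz
    obtain ⟨n, rfl⟩ := mem_zpowers_iff.1 hz
    exact ((show Commute x c from mem_centralizer_iff.1 hc x hx).zpow_right n).eq
  have c3 : ∀ y ∈ Y, ∀ z ∈ zpowers c, y * z = z * y := by
    intro x hx z hz
    obtain ⟨n, rfl⟩ := mem_zpowers_iff.1 hz
    exact ((show Commute x c from mem_centralizer_iff.1 hc' x hx).zpow_right n).eq
  let f : ↥X × ↥Y × ↥(zpowers c) →* G :=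
    { toFun := fun p => (p.1 : G) * ((p.2.1 : G) * (p.2.2 : G))
      map_one' := by simp
      map_mul' := by
        rintro ⟨x, y, z⟩ ⟨x', y', z'⟩
        show (x : G) * x' * ((y : G) * y' * ((z : G) * z')) = x * (y * z) * (x' * (y' * z'))
        have e1 := c1 x' x'.2 y y.2
        have e2 := c2 x' x'.2 z z.2
        have e3 := c3 y' y'.2 z z.2
        calc (x : G) * x' * ((y : G) * y' * ((z : G) * z')) = x * (x' * y) * (y' * z) * z' := by group
          _ = x * (y * x') * (z * y') * z' := by rw [e1, e3]
          _ = x * y * (x' * z) * y' * z' := by group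
          _ = x * y * (z * x') * y' * z' := by rw [e2]
          _ = _ := by group }
  have hf : Function.Injective f := by
    rw [injective_iff_map_eq_one]
    rintro ⟨x, y, z⟩ h1
    have h1' : (x : G) * ((y : G) * (z : G)) = 1 := h1
    have hx : x = 1 := by
      have h2 : x ∈ center ↥X := by
        rw [mem_center_iff]
        intro g
        apply Subtype.ext
        have h3 : (x : G) = ((y : G) * z)⁻¹ := eq_inv_of_mul_eq_one_left h1'
        have h4 : Commute (g : G) ((y : G) * z) := (show Commute (g : G) y from c1 g g.2 y y.2).mul_right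
          (show Commute (g : G) z from c2 g g.2 z z.2)
        show (g : G) * x = x * g
        rw [h3]
        exact h4.inv_right.eq
      rw [hX, mem_bot] at h2
      exact h2
    subst hx
    rw [OneMemClass.coe_one, one_mul] at h1'
    have hy : y = 1 := by
      have h2 : y ∈ center ↥Y := by
        rw [mem_center_iff]
        intro g
        apply Subtype.ext
        have h3 : (y : G) = (z : G)⁻¹ := eq_inv_of_mul_eq_one_left h1'
        have h4 : Commute (g : G) (z : G) := c3 g g.2 z z.2
        show (g : G) * y = y * g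
        rw [h3]
        exact h4.inv_right.eq
      rw [hY, mem_bot] at h2
      exact h2
    subst hy
    rw [OneMemClass.coe_one, one_mul] at h1'
    have hz : z = 1 := Subtype.ext h1'
    subst hz
    rfl
  have h1 := Subgroup.card_dvd_of_injective f hf
  rw [Nat.card_prod, Nat.card_prod, Nat.card_zpowers, ← mul_assoc] at h1
  exact h1

end Seven

end Cfsg.Agent.R2.E72T
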