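import Cfsg.Agent.H420.PG.Tw
import Cfsg.Agent.H420.PG.CharTwo
import Cfsg.Agent.Nodes.KindE

/-!
# `E₇(2)` as the fixed points of a twisted Frobenius map of `E₇(k)` (S5934, box T)

* `exists_iso` : Lang: `PF D φ n ≃* D.group F`, if `d`-th roots exist in `F` (`d` a denominator of the inverse Cartan
  matrix).
* `iso7` : every `P7 n` is isomorphic to `E₇(2)`.
-/

set_option autoImplicit false
set_option linter.unusedSectionVars false

namespace Cfsg.Agent.R2.E72T

open CoxeterSystem Cfsg Cfsg.Lie Cfsg.Lie.ChevalleyDatum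
open Cfsg.Agent.ChevalleyStructure Cfsg.Agent.ChevalleyStructure.Elts Cfsg.Agent.ChevalleyStructure.CoxeterGeom
  Cfsg.Agent.ChevalleyStructure.CoxeterGeomTypes Cfsg.Agent.ChevalleyStructure.NPerm
open Cfsg.Agent.Tits.Roots Cfsg.Agent.Tits.Core Cfsg.Agent.Nodes Cfsg.Agent.Nodes.Reps Cfsg.Agent.Nodes.BNOf
  Cfsg.Agent.Nodes.RGDChev Cfsg.Agent.Nodes.Bruhat Cfsg.Agent.Nodes.SubComb Cfsg.Agent.Nodes.Coroot
open Cfsg.Agent.KFacts.RgdField Cfsg.Agent.KFacts.RgdChevCoord Cfsg.Agent.BpExc.TorCent Cfsg.Agent.BpExc.TorChev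
open Cfsg.Agent.GpExc.Field Cfsg.Agent.BpExc.Tow Cfsg.Agent.BpExc.TowChev Cfsg.Agent.BpExc.Fr
  Cfsg.Agent.BpExc.LangFr Cfsg.Agent.LangThm Cfsg.Agent.BpExc Cfsg.Agent.H129.TorusChar Cfsg.Agent.H129.TorusCent
  Cfsg.Agent.H129.TorusTw Cfsg.Agent.H129.TorusMain Cfsg.Agent.H129.TorusUntw
open Cfsg.Agent.H420.PG

universe u

section Gen

variable {D : ChevalleyDatum} {l : ℕ} {M : CoxeterMatrix (Fin l)} (hp : IsType D l M) {k : Type u} [Field k]
  {W : Type*} [Group W] (cs : CoxeterSystem M W) {p e : ℕ} [Fact p.Prime] [CharP k p]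

include hp cs in
/-- **The fixed points of a twisted Frobenius map are `D.group F`.** -/
theorem exists_iso [IsAlgClosed k] (he : 0 < e) {F : Type u} [Field F] [Fintype F] (f : F →+* k)
    (hq : Fintype.card F = p ^ e) {d : ℕ} {B : Fin l → Fin l → ℤ} (hB : InvC D l d B) (hd : d ≠ 0)
    (hF : ∀ a : F, ∃ b : F, b ^ d = a) {n : GL D.Idx k} (hn : n ∈ D.group k) :
    Nonempty (↥(PF D (iterateFrobenius k p e) n) ≃* ↥(D.group F)) := by
  obtain ⟨z, hz⟩ := lang_all hp cs he (isFrob_phi (k := k) (D := D) (p := p) (e := e)) (fr_phi hp cs) 1 ⟨n, hn⟩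
  rw [map_one, one_mul] at hz
  let ι : ↥(PF D (iterateFrobenius k p e) n) →* ↥(D.group k) := Subgroup.inclusion inf_le_left
  let c : ↥(PF D (iterateFrobenius k p e) n) →* ↥(D.group k) := (MulAut.conj z).toMonoidHom.comp ι
  have hc : ∀ g, c g = z * ι g * z⁻¹ := fun _ => rfl
  have hfix : ∀ g, phi D k p e (c g) = c g := by
    intro g
    rw [hc]
    refine conj_fixed (n := ⟨n, hn⟩) (t := ι g) hz ?_ (Subgroup.mem_zpowers _)
    apply Subtype.ext
    rw [phi_eq hp]
    exact (mem_PF.1 g.2).2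
  have hr : ∀ g, c g ∈ (emb hp.inList f).range := fun g =>
    fix_range hp cs f hq hB hd hF (hfix g)
  let θ : ↥(PF D (iterateFrobenius k p e) n) →* ↥(D.group F) :=
    (MonoidHom.ofInjective (emb_injective hp.inList f)).symm.toMonoidHom.comp (c.codRestrict _ hr)
  have hθ : ∀ g, emb hp.inList f (θ g) = c g := by
    intro g
    have h1 := (MonoidHom.ofInjective (emb_injective hp.inList f)).apply_symm_apply (c.codRestrict _ hr g)
    exact congrArg Subtype.val h1
  refine ⟨MulEquiv.ofBijective θ ⟨?_, ?_⟩⟩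
  · intro a b hab
    have h2 : c a = c b := by rw [← hθ, ← hθ, hab]
    have h3 : ι a = ι b := by
      rw [hc, hc] at h2
      exact mul_left_cancel (mul_right_cancel h2)
    exact Subgroup.inclusion_injective _ h3
  · intro y
    set x : ↥(D.group k) := z⁻¹ * emb hp.inList f y * z with hx
    have h1 : phi D k p e (emb hp.inList f y) = emb hp.inList f y := phi_emb hp f hq y
    have h2 : (⟨n, hn⟩ : ↥(D.group k)) * phi D k p e x * (⟨n, hn⟩ : ↥(D.group k))⁻¹ = x := by
      rw [hx, map_mul, map_mul, map_inv, h1, hz]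
      group
    have h3 : (x : GL D.Idx k) ∈ PF D (iterateFrobenius k p e) n := by
      refine mem_PF.2 ⟨x.2, ?_⟩
      have h4 := congrArg (Subtype.val) h2
      rw [phi_eq hp] at h4
      exact h4
    refine ⟨⟨x, h3⟩, ?_⟩
    apply emb_injective hp.inList f
    rw [hθ, hc]
    have h5 : ι ⟨x, h3⟩ = x := rfl
    rw [h5, hx]
    group

end Gen

/-! ### `E₇(2)` -/

/-- the algebraic closure of the field with two elements -/
abbrev KK : Type := AlgebraicClosure (ZMod 2)

theorem hp7 : IsType chevE7 7 CoxeterMatrix.E₇ := Cfsg.Agent.Nodes.KindE.isType7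

theorem hE7 : InList chevE7 := hp7.inList

instance : CharP KK 2 := charP_of_injective_algebraMap (algebraMap (ZMod 2) KK).injective 2

/-- the fixed points of `g ↦ n φ(g) n⁻¹` -/
noncomputable def P7 (n : GL chevE7.Idx KK) : Subgroup (GL chevE7.Idx KK) := PF chevE7 (iterateFrobenius KK 2 1) n

theorem mem_P7 {n g : GL chevE7.Idx KK} : g ∈ P7 n ↔ g ∈ chevE7.group KK ∧ tsig chevE7 (iterateFrobenius KK 2 1) n g = g :=
  Iff.rfl

/-- **`E₇(2)` is the group of the fixed points of every twisted Frobenius map.** -/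
theorem iso7 {n : GL chevE7.Idx KK} (hn : n ∈ chevE7.group KK) : Nonempty (↥(P7 n) ≃* ↥(chevE7.group (ZMod 2))) :=
  exists_iso hp7 CoxeterMatrix.E₇.toCoxeterSystem Nat.one_pos (algebraMap (ZMod 2) KK) (by rw [ZMod.card, pow_one])
    invC_E7 two_ne_zero (by decide) hn

end Cfsg.Agent.R2.E72T
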