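import Cfsg.Agent.R2.E72T.Base
import Cfsg.Agent.H320.Kill.Pair

/-!
# `L₂(128)` in `E₇(2)` (S5934, box T)
-/

set_option autoImplicit false
set_option linter.unusedSectionVars false

namespace Cfsg.Agent.R2.E72T

open Cfsg.Lie Cfsg.Agent.ChevalleyStructure Cfsg.Agent.ChevalleyStructure.Elts
open Cfsg.Agent.ChevalleyStructure.SL2Hom (up lo mem_closure_SL2)
open Cfsg.Agent.Nodes.RGDFoldSL
open Cfsg.Agent.H420.PG
open scoped MatrixGroups

universe v

section Gen

variable {m : ℕ} {r : Fin m → ℕ}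

theorem Psi_mem_of (h : Orth r = true) {x : Fin m → SL(2, KK)} (S : Subgroup (GL chevE7.Idx KK))
    (hS : ∀ i, psi hE7 KK (r i) (x i) ∈ S) : Psi h x ∈ S := by
  unfold Psi
  rw [MonoidHom.noncommPiCoprod_apply]
  exact Subgroup.noncommProd_mem _ _ fun i _ => hS i

variable {K : Type v} [Field K] [CharP K 2] (f : K →+* KK)

/-- Nontriviality, by the action on a root element. -/
theorem uu_up_ne [NeZero m] (h : Orth r = true) (hr : ∀ i, r i < 126) {s c : ℕ}
    (hs : okB chevE7 (r 0) s [(c, 1, 1)] = true) (hc : c < 126) (ho : ∀ i, i ≠ 0 → okB chevE7 (r i) s [] = true) :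
    uu f h (up 1) ≠ 1 := by
  intro h1
  let x : Fin m → SL(2, KK) := dg f m (up 1)
  have hx : ∀ i, x i = up 1 := by
    intro i
    show Matrix.SpecialLinearGroup.map (fr f i) (up 1) = up 1
    rw [map_up, map_one]
  have h2 : x = Pi.mulSingle 0 (up 1) * (x * (Pi.mulSingle 0 (up 1))⁻¹) := by
    funext i
    rw [Pi.mul_apply, Pi.mul_apply, Pi.inv_apply]
    by_cases hi : i = 0
    · subst hi
      rw [Pi.mulSingle_eq_same, hx]
      group
    · rw [Pi.mulSingle_eq_of_ne hi]
      group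
  have h3 : Psi h x = xG hE7 (r 0) 1 * Psi h (x * (Pi.mulSingle 0 (up 1))⁻¹) := by
    conv_lhs => rw [h2]
    rw [map_mul, Psi_single, psi_up hE7 (show r 0 < chevE7.nroots from hr 0)]
  have h4 : Psi h (x * (Pi.mulSingle 0 (up 1))⁻¹) ∈ Subgroup.centralizer {xG hE7 s (1 : KK)} := by
    refine Psi_mem_of h _ fun i => ?_
    rw [Subgroup.mem_centralizer_singleton_iff]
    by_cases hi : i = 0
    · subst hi
      rw [Pi.mul_apply, Pi.inv_apply, Pi.mulSingle_eq_same, hx, mul_inv_cancel, map_one, one_mul, mul_one]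
    · rw [Pi.mul_apply, Pi.inv_apply, Pi.mulSingle_eq_of_ne hi, hx, inv_one, mul_one,
        psi_up hE7 (show r i < chevE7.nroots from hr i)]
      exact (comm_of hE7 (ho i hi) 1 1).eq
  have h5 : Psi h x = 1 := h1
  rw [h3] at h5
  have h6 : Commute (xG hE7 (r 0) (1 : KK)) (xG hE7 s 1) := by
    have h7 : xG hE7 (r 0) (1 : KK) = (Psi h (x * (Pi.mulSingle 0 (up 1))⁻¹))⁻¹ := eq_inv_of_mul_eq_one_left h5
    rw [h7]
    exact (show Commute _ _ from Subgroup.mem_centralizer_singleton_iff.1 h4).inv_left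
  have h8 := rel (F := KK) hE7 hs 1 1
  rw [List.map_cons, List.map_nil, List.prod_cons, List.prod_nil, mul_one, h6.eq] at h8
  have h9 : xG hE7 c ((1 : KK) ^ 1 * 1 ^ 1) = 1 := by
    have := mul_left_cancel (a := xG hE7 s (1 : KK) * xG hE7 (r 0) 1) (b := 1) (c := xG hE7 c ((1 : KK) ^ 1 * 1 ^ 1))
      (by rw [mul_one]; exact h8)
    exact this.symm
  rw [xG_eq_one_iff hE7 (show c < chevE7.nroots from hc)] at h9
  simp at h9

theorem uu_injective [Fintype K] (h4 : 4 ≤ Fintype.card K) (h : Orth r = true) (hne : uu f h (up 1) ≠ 1) :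
    Function.Injective (uu f h) := by
  have hs : IsSimpleGroup SL(2, K) := H320.Kill.simple_sl (CharTwo.two_eq_zero) (by rwa [Nat.card_eq_fintype_card])
  rw [← MonoidHom.ker_eq_bot_iff]
  rcases hs.eq_bot_or_eq_top_of_normal _ (MonoidHom.normal_ker (uu f h)) with h1 | h1
  · exact h1
  · exact absurd (MonoidHom.mem_ker.1 (h1 ▸ Subgroup.mem_top (up 1))) hne

end Gen

/-! ### `L₂(128)` -/

/-- the word of the Weyl group element of order 7 -/
def w7 : List ℕ := [4, 3, 2, 0, 6, 5]

/-- seven orthogonal roots -/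
def r7 : Fin 7 → ℕ := ![79, 84, 107, 92, 115, 111, 101]

theorem w7_lt : ∀ i ∈ w7, i < chevE7.rank := by decide +kernel

theorem orth7 : Orth r7 = true := by decide +kernel

theorem cyc7 : CycB w7 r7 (fun i => i + 1) = true := by decide +kernel

theorem lt7 : ∀ i, r7 i < 126 := by decide +kernel

theorem act7 : okB chevE7 (r7 0) 112 [(119, 1, 1)] = true := by decide +kernel

theorem nact7 : ∀ i, i ≠ 0 → okB chevE7 (r7 i) 112 [] = true := by decide +kernel

theorem charTwo_of_card {K : Type v} [Field K] [Fintype K] {m : ℕ} (hK : Fintype.card K = 2 ^ m) : CharP K 2 := by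
  have : Fact (Nat.Prime 2) := ⟨Nat.prime_two⟩
  exact charP_of_card_eq_prime_pow hK

/-- an embedding in the algebraic closure -/
theorem exists_emb (K : Type v) [Field K] [Finite K] [CharP K 2] : Nonempty (K →+* KK) := by
  let _ : Algebra (ZMod 2) K := ZMod.algebra K 2
  exact ⟨(IsAlgClosed.lift (R := ZMod 2) (M := KK) (S := K)).toRingHom⟩

/-- a homomorphism to the fixed points gives a homomorphism to `E₇(2)` -/
theorem exists_hom_of {X : Type v} [Group X] {w : List ℕ} {θ : X →* GL chevE7.Idx KK}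
    (h : ∀ x, θ x ∈ PW w) (hi : Function.Injective θ) :
    ∃ η : X →* ↥(chevE7.group (ZMod 2)), Function.Injective η := by
  obtain ⟨e⟩ := isoW w
  refine ⟨e.toMonoidHom.comp (θ.codRestrict (PW w) h), ?_⟩
  intro a b hab
  have h1 := e.injective (show e (θ.codRestrict (PW w) h a) = e (θ.codRestrict (PW w) h b) from hab)
  exact hi (congrArg Subtype.val h1)

/-- **`L₂(128)` embeds in `E₇(2)`.** -/
theorem exists_l2_128 {K : Type v} [Field K] [Fintype K] (hK : Fintype.card K = 128) :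
    ∃ θ : SL(2, K) →* ↥(chevE7.group (ZMod 2)), Function.Injective θ := by
  have hK' : Fintype.card K = 2 ^ 7 := by rw [hK]; norm_num
  have hc : CharP K 2 := charTwo_of_card hK'
  obtain ⟨f⟩ := exists_emb K
  refine exists_hom_of (w := w7) (θ := uu f orth7) (fun x => ?_)
    (uu_injective f (by rw [hK]; norm_num) orth7 (uu_up_ne f orth7 lt7 act7 (by norm_num) nact7))
  rw [mem_PW]
  exact ⟨Psi_mem (r := r7) orth7 lt7 (dg f 7 x), uu_fix f hK' orth7 w7_lt cyc7 x⟩

end Cfsg.Agent.R2.E72T
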