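import Cfsg.Agent.H420.PG.CharTwo
import Cfsg.Agent.ChevalleyStructure.StBasic
import Cfsg.Agent.ChevalleyStructure.StTheta

/-!
# Subsystem homomorphisms in characteristic 2 (S5934, box T)

`subHom` : a map `τ` of root indices respecting negatives and sums induces a homomorphism
`D₀.SteinbergGroup K →* GL D.Idx k`, `x̄_r(t) ↦ x_{τ r}(f t)`, in characteristic 2.
-/

set_option autoImplicit false
set_option linter.unusedSectionVars false

namespace Cfsg.Agent.R2.E72T

open Cfsg.Lie Cfsg.Agent.ChevalleyStructure Cfsg.Agent.ChevalleyStructure.Elts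
open Cfsg.Agent.ChevalleyStructure.StBasic
open Cfsg.Agent.H420.PG

universe u v

/-- the row of the check -/
def chkRow (D₀ D : ChevalleyDatum) (τ : ℕ → ℕ) (r : ℕ) : Bool :=
  decide (τ r < D.nroots) && (decide (D₀.neg r < D₀.nroots) && ((D.neg (τ r) == τ (D₀.neg r)) &&
    (List.range D₀.nroots).all fun s => s == r || (s == D₀.neg r ||
      (okB D (τ r) (τ s) ((odd3 D₀ r s).map fun c => (τ c.1, c.2)) && (odd3 D₀ r s).all fun c => decide (c.1 < D₀.nroots)))))

/-- the map `τ` is compatible with the commutator relations modulo 2 -/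
structure SubOK (D₀ D : ChevalleyDatum) (τ : ℕ → ℕ) : Prop where
  row : ∀ r < D₀.nroots, chkRow D₀ D τ r = true

namespace SubOK

variable {D₀ D : ChevalleyDatum} {τ : ℕ → ℕ} (h : SubOK D₀ D τ)

include h

theorem lt {r : ℕ} (hr : r < D₀.nroots) : τ r < D.nroots := by
  have h1 := h.row r hr
  unfold chkRow at h1
  simp only [Bool.and_eq_true, decide_eq_true_eq] at h1
  exact h1.1

theorem neg_lt {r : ℕ} (hr : r < D₀.nroots) : D₀.neg r < D₀.nroots := by
  have h1 := h.row r hr
  unfold chkRow at h1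
  simp only [Bool.and_eq_true, decide_eq_true_eq] at h1
  exact h1.2.1

theorem neg {r : ℕ} (hr : r < D₀.nroots) : D.neg (τ r) = τ (D₀.neg r) := by
  have h1 := h.row r hr
  unfold chkRow at h1
  simp only [Bool.and_eq_true, beq_iff_eq] at h1
  exact h1.2.2.1

theorem ok {r s : ℕ} (hr : r < D₀.nroots) (hs : s < D₀.nroots) (h1 : s ≠ r) (h2 : s ≠ D₀.neg r) :
    okB D (τ r) (τ s) ((odd3 D₀ r s).map fun c => (τ c.1, c.2)) = true ∧ ∀ c ∈ odd3 D₀ r s, c.1 < D₀.nroots := by
  have h3 := h.row r hr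
  unfold chkRow at h3
  simp only [Bool.and_eq_true] at h3
  have h4 := List.all_eq_true.1 h3.2.2.2 s (List.mem_range.2 hs)
  simp only [Bool.or_eq_true, beq_iff_eq, h1, h2, false_or, Bool.and_eq_true] at h4
  refine ⟨h4.1, fun c hc => ?_⟩
  have h5 := List.all_eq_true.1 h4.2 c hc
  simpa using h5

end SubOK

section Hom

variable {D₀ D : ChevalleyDatum} {τ : ℕ → ℕ} (h : SubOK D₀ D τ) (hD : InList D)
  {K : Type v} [Field K] [CharP K 2] {k : Type u} [Field k] [CharP k 2] (f : K →+* k)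

/-- the images of the generators -/
noncomputable def gx (D₀ : ChevalleyDatum) (hD : InList D) (τ : ℕ → ℕ) (f : K →+* k) (r : ℕ) (t : K) : GL D.Idx k :=
  if r < D₀.nroots then xG hD (τ r) (f t) else 1

theorem gx_of_lt {r : ℕ} (hr : r < D₀.nroots) (t : K) : gx D₀ hD τ f r t = xG hD (τ r) (f t) := if_pos hr

theorem gx_of_not_lt {r : ℕ} (hr : ¬ r < D₀.nroots) (t : K) : gx D₀ hD τ f r t = 1 := if_neg hr

theorem gx_zero (r : ℕ) : gx D₀ hD τ f r 0 = 1 := by
  unfold gx
  split_ifs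
  · rw [map_zero, xG_zero]
  · rfl

/-- the product over the terms of a commutator, modulo 2 -/
theorem prod_terms (t u : K) : ∀ w : List (ℕ × ℤ × ℕ × ℕ),
    (∀ c ∈ (w.filter fun t => t.2.1 % 2 != 0).map fun t => (t.1, t.2.2), c.1 < D₀.nroots) →
    ((w.map fun c => (c.1, (c.2.1 : K) * (-t) ^ c.2.2.1 * u ^ c.2.2.2)).map fun p => gx D₀ hD τ f p.1 p.2).prod =
      ((((w.filter fun t => t.2.1 % 2 != 0).map fun t => (t.1, t.2.2)).map fun c => (τ c.1, c.2)).map
        fun c : ℕ × ℕ × ℕ => xG hD c.1 ((f t) ^ c.2.1 * (f u) ^ c.2.2)).prod := by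
  intro w
  have e : (-t : K) = t := CharTwo.neg_eq t
  induction w with
  | nil => intro _; rfl
  | cons c w ih =>
    intro hw
    by_cases hc : c.2.1 % 2 ≠ 0
    · rw [List.filter_cons_of_pos (by simpa using hc)] at hw ⊢
      simp only [List.map_cons, List.prod_cons]
      rw [List.map_cons, List.forall_mem_cons] at hw
      rw [ih hw.2]
      congr 1
      rw [gx_of_lt hD f hw.1]
      simp only [e, cast_odd hc, one_mul, map_mul, map_pow]
    · rw [List.filter_cons_of_neg (by simpa using hc)] at hw ⊢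
      simp only [List.map_cons, List.prod_cons]
      rw [ih hw]
      simp only [cast_even hc, zero_mul, gx_zero, one_mul]

/-- the word of `h_r(t)` -/
theorem prod_hWord (h : SubOK D₀ D τ) {r : ℕ} (hr : r < D₀.nroots) (t : K) :
    ((D₀.hWord r t).map fun p => gx D₀ hD τ f p.1 p.2).prod = StTheta.thetaGL hD k (sth D (τ r) (f t)) := by
  have h1 : (D₀.hWord r t).map (fun p => gx D₀ hD τ f p.1 p.2) =
      (D.hWord (τ r) (f t)).map (fun p => StTheta.thetaGL hD k (D.stGen k p.1 p.2)) := by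
    show [gx D₀ hD τ f r t, gx D₀ hD τ f (D₀.neg r) (-t⁻¹), gx D₀ hD τ f r t, gx D₀ hD τ f r (-1),
      gx D₀ hD τ f (D₀.neg r) (-(-1)⁻¹), gx D₀ hD τ f r (-1)] =
      [StTheta.thetaGL hD k (D.stGen k (τ r) (f t)), StTheta.thetaGL hD k (D.stGen k (D.neg (τ r)) (-(f t)⁻¹)),
        StTheta.thetaGL hD k (D.stGen k (τ r) (f t)), StTheta.thetaGL hD k (D.stGen k (τ r) (-1)),
        StTheta.thetaGL hD k (D.stGen k (D.neg (τ r)) (-(-1)⁻¹)), StTheta.thetaGL hD k (D.stGen k (τ r) (-1))]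
    simp only [StTheta.thetaGL_stGen, gx_of_lt hD f hr, gx_of_lt hD f (h.neg_lt hr), h.neg hr, map_neg, map_inv₀,
      map_one]
  rw [h1, ← map_wd]
  rfl

/-- **The homomorphism of a subsystem.** -/
noncomputable def subHom : D₀.SteinbergGroup K →* GL D.Idx k :=
  lift D₀ (gx D₀ hD τ f) (fun _ t hr => gx_of_not_lt hD f hr t)
    (fun r t₁ t₂ hr => by rw [gx_of_lt hD f hr, gx_of_lt hD f hr, gx_of_lt hD f hr, xG_add, map_add])
    (fun r s t u hr hs hne hneg => by
      obtain ⟨h1, h2⟩ := h.ok hr hs hne hneg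
      have h3 := rel (F := k) hD h1 (f t) (f u)
      have h4 := prod_terms (τ := τ) hD f t u (D₀.commTerms r s) h2
      rw [gx_of_lt hD f hr, gx_of_lt hD f hs]
      have h5 : ((D₀.commWord K r s t u).map fun p => gx D₀ hD τ f p.1 p.2).prod =
          (((odd3 D₀ r s).map fun c => (τ c.1, c.2)).map
            fun c : ℕ × ℕ × ℕ => xG hD c.1 ((f t) ^ c.2.1 * (f u) ^ c.2.2)).prod := h4
      rw [h5, mul_assoc ((xG hD (τ s) (f u))⁻¹ * (xG hD (τ r) (f t))⁻¹), h3]
      group)
    (fun r t₁ t₂ hr h₁ h₂ => by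
      rw [prod_hWord hD f h hr, prod_hWord hD f h hr, prod_hWord hD f h hr, ← map_mul,
        sth_mul D (h.lt hr) (by simpa using h₁) (by simpa using h₂), map_mul])

theorem subHom_stGen {r : ℕ} (hr : r < D₀.nroots) (t : K) :
    subHom h hD f (D₀.stGen K r t) = xG hD (τ r) (f t) := by
  unfold subHom
  rw [lift_stGen, gx_of_lt hD f hr]

/-- homomorphisms of the Steinberg group agreeing on the generators are equal -/
theorem st_ext {G : Type*} [Group G] {a b : D₀.SteinbergGroup K →* G}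
    (hab : ∀ r < D₀.nroots, ∀ t : K, a (D₀.stGen K r t) = b (D₀.stGen K r t)) : a = b := by
  have h1 : (⊤ : Subgroup (D₀.SteinbergGroup K)) ≤ a.eqLocus b := by
    rw [← closure_stGen, Subgroup.closure_le]
    rintro _ ⟨r, t, hr, rfl⟩
    exact hab r hr t
  exact MonoidHom.ext fun g => h1 (Subgroup.mem_top g)

theorem subHom_mem (g : D₀.SteinbergGroup K) : subHom h hD f g ∈ D.group k := by
  have h1 : (⊤ : Subgroup (D₀.SteinbergGroup K)) ≤ (D.group k).comap (subHom h hD f) := by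
    rw [← closure_stGen, Subgroup.closure_le]
    rintro _ ⟨r, t, hr, rfl⟩
    rw [SetLike.mem_coe, Subgroup.mem_comap, subHom_stGen h hD f hr]
    exact xG_mem_group hD _ _
  exact h1 (Subgroup.mem_top g)

end Hom

end Cfsg.Agent.R2.E72T
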