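import Cfsg.Agent.R2.E72T.T2tab
import Cfsg.Agent.R2.E72T.Pair
import Cfsg.Agent.R2.E72T.Tor
import Cfsg.Agent.R2.E72T.Cov
import Cfsg.Agent.R2.E72T.BoxT10
import Cfsg.Agent.S1054
import Cfsg.Agent.S1066
import Cfsg.Agent.S1070
import Cfsg.Agent.S1079
import Cfsg.Agent.H65.MultE

/-!
# `3·²E₆(2)` in `E₇(2)` (S5934, box T2)
-/

set_option autoImplicit false
set_option linter.unusedSectionVars false

namespace Cfsg.Agent.R2.E72T

open Cfsg.Lie Cfsg.Agent.ChevalleyStructure Cfsg.Agent.ChevalleyStructure.Elts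
open Cfsg.Agent.ChevalleyStructure.StBasic
open Cfsg.Agent.ChevalleyStructure.StEmbed (ι67 m67 emb67)
open Cfsg.Agent.ChevalleyStructure.SL2Hom (up lo mem_closure_SL2)
open Cfsg.Agent.ChevalleyStructure.BruhatSplit (hG_simple_conj)
open Cfsg.Agent.Nodes.RGDFoldSL Cfsg.Agent.Nodes.RGDChev
open Cfsg.Agent.H420.PG
open Cfsg.Agent.R2.H27
open scoped MatrixGroups

universe u

theorem hE6 : InList chevE6 := by simp

section K

variable {K : Type u} [Field K]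

/-- the embedding -/
noncomputable def Θ6 (K : Type u) [Field K] : chevE6.SteinbergGroup K →* GL chevE7.Idx K :=
  (StTheta.thetaGL hE7 K).comp (StEmbed.hom emb67 K)

theorem Θ6_gen {r : ℕ} (hr : r < 72) (t : K) : Θ6 K (chevE6.stGen K r t) = xG hE7 (ι67 r) t := by
  rw [Θ6, MonoidHom.comp_apply, StEmbed.hom_stGen emb67 (show r < chevE6.nroots from hr), StTheta.thetaGL_stGen]

theorem Θ6_mem (x : chevE6.SteinbergGroup K) : Θ6 K x ∈ chevE7.group K := StTheta.thetaGL_mem hE7 _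

/-- the central element -/
noncomputable def zz (t : K) : chevE6.SteinbergGroup K :=
  hab chevE6 e6p1 e6p6 e6m1 e6m6 t * hab chevE6 e6p3 e6p5 e6m3 e6m5 (t ^ 2)

variable [CharP K 2]

theorem Θ6_zz (t : K) : Θ6 K (zz t) = hG hE7 (ι67 e6p1) t * hG hE7 (ι67 e6p6) (t ^ 2) *
    (hG hE7 (ι67 e6p3) (t ^ 2) * hG hE7 (ι67 e6p5) ((t ^ 2) ^ 2)) := by
  obtain ⟨n1, n6, n3, n5⟩ := neg67
  rw [zz, map_mul, map_hab okP7a (fun t => Θ6_gen (by decide) t) (fun t => Θ6_gen (by decide) t)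
    (fun t => by rw [n1]; exact Θ6_gen (by decide) t) (fun t => by rw [n6]; exact Θ6_gen (by decide) t),
    map_hab okP7b (fun t => Θ6_gen (by decide) t) (fun t => Θ6_gen (by decide) t)
    (fun t => by rw [n3]; exact Θ6_gen (by decide) t) (fun t => by rw [n5]; exact Θ6_gen (by decide) t)]

theorem θ6_zz (t : K) : StTheta.thetaGL hE6 K (zz t) = hG hE6 e6p1 t * hG hE6 e6p6 (t ^ 2) *
    (hG hE6 e6p3 (t ^ 2) * hG hE6 e6p5 ((t ^ 2) ^ 2)) := by
  obtain ⟨n1, n6, n3, n5⟩ := neg6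
  rw [zz, map_mul, map_hab okP6a (fun t => StTheta.thetaGL_stGen hE6 _ t) (fun t => StTheta.thetaGL_stGen hE6 _ t)
    (fun t => by rw [n1]; exact StTheta.thetaGL_stGen hE6 _ t) (fun t => by rw [n6]; exact StTheta.thetaGL_stGen hE6 _ t),
    map_hab okP6b (fun t => StTheta.thetaGL_stGen hE6 _ t) (fun t => StTheta.thetaGL_stGen hE6 _ t)
    (fun t => by rw [n3]; exact StTheta.thetaGL_stGen hE6 _ t) (fun t => by rw [n5]; exact StTheta.thetaGL_stGen hE6 _ t)]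

theorem zpow_three {t : K} (ht : t ^ 3 = 1) (h0 : t ≠ 0) {n : ℤ} (hn : (3 : ℤ) ∣ n) : t ^ n = 1 := by
  obtain ⟨m, rfl⟩ := hn
  rw [zpow_mul]
  have : t ^ (3 : ℤ) = 1 := by exact_mod_cast ht
  rw [this, one_zpow]

theorem θ6_zz_comm {t : K} (ht : t ^ 3 = 1) {s : ℕ} (hs : s < 72) (u : K) :
    StTheta.thetaGL hE6 K (zz t) * xG hE6 s u * (StTheta.thetaGL hE6 K (zz t))⁻¹ = xG hE6 s u := by
  have h0 : t ≠ 0 := fun h => by rw [h] at ht; norm_num at ht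
  obtain ⟨s1, s6, s3, s5⟩ := simple6
  have e5 := hG_simple_conj hE6 (i := 4) (by decide) (show s < chevE6.nroots from hs) (pow_ne_zero 2 (pow_ne_zero 2 h0)) u
  have e3 := hG_simple_conj hE6 (i := 2) (by decide) (show s < chevE6.nroots from hs) (pow_ne_zero 2 h0)
    (((t ^ 2) ^ 2) ^ chevE6.cartan 4 s * u)
  have e6 := hG_simple_conj hE6 (i := 5) (by decide) (show s < chevE6.nroots from hs) (pow_ne_zero 2 h0)
    ((t ^ 2) ^ chevE6.cartan 2 s * (((t ^ 2) ^ 2) ^ chevE6.cartan 4 s * u))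
  have e1 := hG_simple_conj hE6 (i := 0) (by decide) (show s < chevE6.nroots from hs) h0
    ((t ^ 2) ^ chevE6.cartan 5 s * ((t ^ 2) ^ chevE6.cartan 2 s * (((t ^ 2) ^ 2) ^ chevE6.cartan 4 s * u)))
  rw [s1] at e1
  rw [s6] at e6
  rw [s3] at e3
  rw [s5] at e5
  have e : t ^ chevE6.cartan 0 s * ((t ^ 2) ^ chevE6.cartan 5 s * ((t ^ 2) ^ chevE6.cartan 2 s *
      (((t ^ 2) ^ 2) ^ chevE6.cartan 4 s * u))) = u := by
    have e7 := zpow_three ht h0 (exp6 s hs)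
    rw [zpow_add₀ h0, zpow_add₀ h0, zpow_add₀ h0, zpow_mul, zpow_mul, zpow_mul] at e7
    have e8 : ((t ^ 2) ^ 2 : K) = t ^ (4 : ℤ) := by rw [← pow_mul]; norm_cast
    have e9 : (t ^ 2 : K) = t ^ (2 : ℤ) := by norm_cast
    rw [e8, e9]
    calc _ = t ^ chevE6.cartan 0 s * (t ^ (2 : ℤ)) ^ chevE6.cartan 5 s *
          ((t ^ (2 : ℤ)) ^ chevE6.cartan 2 s * (t ^ (4 : ℤ)) ^ chevE6.cartan 4 s) * u := by ring
      _ = u := by rw [e7, one_mul]
  rw [e] at e1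
  rw [θ6_zz]
  conv_rhs => rw [← e1, ← e6, ← e3, ← e5]
  group

/-- the centre of `E₆(K)` is trivial -/
theorem center_E6 (K : Type u) [Field K] : Subgroup.center ↥(chevE6.group K) = ⊥ := by
  obtain ⟨h1, h2⟩ := Cfsg.Agent.S1054.result (F := K) chevE6 (by simp)
  rcases h1.eq_bot_or_eq_top_of_normal (Subgroup.center ↥(chevE6.group K)) inferInstance with h3 | h3
  · exact h3
  · exfalso
    apply h2
    refine ⟨⟨fun a b => ?_⟩⟩
    have : b ∈ Subgroup.center ↥(chevE6.group K) := by rw [h3]; exact Subgroup.mem_top b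
    exact Subgroup.mem_center_iff.1 this a

/-- **The element is central.** -/
theorem zz_mem_center {t : K} (ht : t ^ 3 = 1) : zz t ∈ Subgroup.center (chevE6.SteinbergGroup K) := by
  rw [← Cfsg.Agent.H65.MultE.ker_theta (K := K) hE6, MonoidHom.mem_ker]
  have h1 : StTheta.theta hE6 K (zz t) ∈ Subgroup.center ↥(chevE6.group K) := by
    rw [Subgroup.mem_center_iff]
    rintro ⟨g, hg⟩
    apply Subtype.ext
    show g * StTheta.thetaGL hE6 K (zz t) = StTheta.thetaGL hE6 K (zz t) * g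
    have h2 : chevE6.group K ≤ Subgroup.centralizer {StTheta.thetaGL hE6 K (zz t)} := by
      rw [group_le_iff hE6]
      intro r hr u
      rw [Subgroup.mem_centralizer_singleton_iff]
      have h3 := θ6_zz_comm ht (show r < 72 from hr) u
      rw [mul_inv_eq_iff_eq_mul] at h3
      exact h3.symm
    exact Subgroup.mem_centralizer_singleton_iff.1 (h2 hg)
  rw [center_E6, Subgroup.mem_bot] at h1
  exact h1

/-- `R = ⟨words⟩` in the Steinberg group -/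
noncomputable abbrev R6 (K : Type u) [Field K] : Subgroup (chevE6.SteinbergGroup K) := stS chevE6 (e6Words K 2)

theorem uab_mem {a b : ℕ} (h : (a, b) ∈ [(e6p1, e6p6), (e6m1, e6m6), (e6p3, e6p5), (e6m3, e6m5)]) (t : K) :
    uab chevE6 a b t ∈ R6 K :=
  Subgroup.subset_closure ⟨_, Or.inr ⟨t, (a, b), h, rfl⟩, rfl⟩

theorem zz_mem (t : K) : zz t ∈ R6 K := by
  refine mul_mem ?_ ?_
  · refine mul_mem (mul_mem ?_ (mul_mem ?_ ?_)) (mul_mem ?_ (mul_mem ?_ ?_)) <;> exact uab_mem (by decide) _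
  · refine mul_mem (mul_mem ?_ (mul_mem ?_ ?_)) (mul_mem ?_ (mul_mem ?_ ?_)) <;> exact uab_mem (by decide) _

end K

section Fin

variable {K : Type u} [Field K] [Fintype K] [CharP K 2]

theorem Θ6_zz_ne {t : K} (ht : t ^ 3 = 1) (h1 : t ≠ 1) : Θ6 K (zz t) ≠ 1 := by
  have h0 : t ≠ 0 := fun h => by rw [h] at ht; norm_num at ht
  obtain ⟨l1, l6, l3, l5⟩ := ι67_pos
  intro h
  have hs : 63 < 126 := by norm_num
  have e5 := hG_conj7 (K := K) l5 (pow_ne_zero 2 (pow_ne_zero 2 h0)) 63 hs 1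
  have e3 := hG_conj7 (K := K) l3 (pow_ne_zero 2 h0) 63 hs (((t ^ 2) ^ 2) ^ pr7 63 (ι67 e6p5) * 1)
  have e6 := hG_conj7 (K := K) l6 (pow_ne_zero 2 h0) 63 hs
    ((t ^ 2) ^ pr7 63 (ι67 e6p3) * (((t ^ 2) ^ 2) ^ pr7 63 (ι67 e6p5) * 1))
  have e1 := hG_conj7 (K := K) l1 h0 63 hs
    ((t ^ 2) ^ pr7 63 (ι67 e6p6) * ((t ^ 2) ^ pr7 63 (ι67 e6p3) * (((t ^ 2) ^ 2) ^ pr7 63 (ι67 e6p5) * 1)))
  rw [← e6, ← e3, ← e5] at e1
  have e2 : Θ6 K (zz t) * xG hE7 63 1 * (Θ6 K (zz t))⁻¹ = xG hE7 63 (t ^ (-2 : ℤ)) := by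
    have e : t ^ pr7 63 (ι67 e6p1) * ((t ^ 2) ^ pr7 63 (ι67 e6p6) * ((t ^ 2) ^ pr7 63 (ι67 e6p3) *
        (((t ^ 2) ^ 2) ^ pr7 63 (ι67 e6p5) * 1))) = t ^ (-2 : ℤ) := by
      rw [← exp7, zpow_add₀ h0, zpow_add₀ h0, zpow_add₀ h0, zpow_mul, zpow_mul, zpow_mul]
      have e8 : ((t ^ 2) ^ 2 : K) = t ^ (4 : ℤ) := by rw [← pow_mul]; norm_cast
      have e9 : (t ^ 2 : K) = t ^ (2 : ℤ) := by norm_cast
      rw [e8, e9]
      ring
    rw [← e, ← hG_conj7 (K := K) l1 h0 63 hs, ← hG_conj7 (K := K) l6 (pow_ne_zero 2 h0) 63 hs,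
      ← hG_conj7 (K := K) l3 (pow_ne_zero 2 h0) 63 hs, ← hG_conj7 (K := K) l5 (pow_ne_zero 2 (pow_ne_zero 2 h0)) 63 hs,
      Θ6_zz]
    group
  rw [h, one_mul, inv_one, mul_one] at e2
  have e4 := xG_injective hE7 (show 63 < chevE7.nroots by decide) e2
  have e7 : t ^ (2 : ℤ) = 1 := by
    rw [zpow_neg] at e4
    exact (inv_eq_one.1 e4.symm)
  have e8 : t ^ 2 = 1 := by exact_mod_cast e7
  apply h1
  calc t = t ^ 2 * t := by rw [e8, one_mul]
    _ = t ^ 3 := by ring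
    _ = 1 := ht

end Fin

end Cfsg.Agent.R2.E72T
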