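import Cfsg.Agent.R2.E72T.Cent
import Cfsg.Agent.ChevalleyStructure.StEmbed
import Cfsg.Prelude.Def_LieTwisted

/-!
# `3·²E₆(2)` in `E₇(2)`: tables (S5934, box T2)
-/

set_option autoImplicit false
set_option linter.unusedSectionVars false

namespace Cfsg.Agent.R2.E72T

open Cfsg.Lie Cfsg.Agent.ChevalleyStructure Cfsg.Agent.ChevalleyStructure.Elts
open Cfsg.Agent.ChevalleyStructure.StEmbed (ι67 m67 emb67)
open Cfsg.Agent.H420.PG

/-- the word of the Weyl group element inducing the graph automorphism of `E₆` -/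
def w6 : List ℕ := [6, 5, 4, 3, 1, 2, 0, 3, 2, 4, 3, 1, 5, 4, 3, 2, 0, 6, 5, 4, 3, 1, 2, 3, 4, 5, 6]

theorem w6_lt : ∀ i ∈ w6, i < chevE7.rank := by decide +kernel

theorem w6_pow : ∀ s < 126, (fun s => w6.foldr chevE7.reflectRoot s)^[2] s = s := by decide +kernel

theorem ι67_lt : ∀ r < 72, ι67 r < 126 := by decide +kernel

theorem w6_E6 : ([e6p2, e6m2, e6p4, e6m4, e6p1, e6p6, e6m1, e6m6, e6p3, e6p5, e6m3, e6m5].map ι67).map
      (fun s => w6.foldr chevE7.reflectRoot s) =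
    [e6p2, e6m2, e6p4, e6m4, e6p6, e6p1, e6m6, e6m1, e6p5, e6p3, e6m5, e6m3].map ι67 := by decide +kernel

theorem okP6a : okP chevE6 e6p1 e6p6 = true := by decide +kernel

theorem okP6b : okP chevE6 e6p3 e6p5 = true := by decide +kernel

theorem okP7a : okP chevE7 (ι67 e6p1) (ι67 e6p6) = true := by decide +kernel

theorem okP7b : okP chevE7 (ι67 e6p3) (ι67 e6p5) = true := by decide +kernel

theorem neg6 : chevE6.neg e6p1 = e6m1 ∧ chevE6.neg e6p6 = e6m6 ∧ chevE6.neg e6p3 = e6m3 ∧ chevE6.neg e6p5 = e6m5 := by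
  decide +kernel

theorem neg67 : chevE7.neg (ι67 e6p1) = ι67 e6m1 ∧ chevE7.neg (ι67 e6p6) = ι67 e6m6 ∧
    chevE7.neg (ι67 e6p3) = ι67 e6m3 ∧ chevE7.neg (ι67 e6p5) = ι67 e6m5 := by
  decide +kernel

theorem simple6 : chevE6.simple 0 = e6p1 ∧ chevE6.simple 5 = e6p6 ∧ chevE6.simple 2 = e6p3 ∧ chevE6.simple 4 = e6p5 := by
  decide +kernel

theorem exp6 : ∀ s < 72, (3 : ℤ) ∣ chevE6.cartan 0 s + 2 * chevE6.cartan 5 s +
    (2 * chevE6.cartan 2 s + 4 * chevE6.cartan 4 s) := by decide +kernel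

theorem exp7 : pr7 63 (ι67 e6p1) + 2 * pr7 63 (ι67 e6p6) + (2 * pr7 63 (ι67 e6p3) + 4 * pr7 63 (ι67 e6p5)) = -2 := by
  decide +kernel

theorem ι67_pos : ι67 e6p1 < 126 ∧ ι67 e6p6 < 126 ∧ ι67 e6p3 < 126 ∧ ι67 e6p5 < 126 := by decide +kernel

theorem nab6 : okB chevE7 (ι67 e6p1) (ι67 e6p3) [(94, 1, 1)] = true := by decide +kernel

end Cfsg.Agent.R2.E72T
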