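import Cfsg.Agent.R2.E72T.D4

/-!
# `L₂(8) × ³D₄(2)` in `E₇(2)`: tables (S5934, box T9)
-/

set_option autoImplicit false
set_option linter.unusedSectionVars false

namespace Cfsg.Agent.R2.E72T

open Cfsg.Lie Cfsg.Agent.ChevalleyStructure Cfsg.Agent.ChevalleyStructure.Elts
open Cfsg.Agent.H420.PG

/-- the word of the Weyl group element of order 3 -/
def w3 : List ℕ := [5, 4, 3, 1, 2, 0, 3, 2, 4, 3, 1, 5, 4, 3, 2, 0]

/-- three orthogonal roots -/
def r3 : Fin 3 → ℕ := ![63, 92, 125]

theorem w3_lt : ∀ i ∈ w3, i < chevE7.rank := by decide +kernel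

theorem orth3 : Orth r3 = true := by decide +kernel

theorem cyc3 : CycB w3 r3 (fun i => i + 1) = true := by decide +kernel

theorem lt3 : ∀ i, r3 i < 126 := by decide +kernel

theorem act3 : okB chevE7 (r3 0) 64 [(65, 1, 1)] = true := by decide +kernel

theorem nact3 : ∀ i, i ≠ 0 → okB chevE7 (r3 i) 64 [] = true := by decide +kernel

theorem w3_pow : ∀ s < 126, (fun s => w3.foldr chevE7.reflectRoot s)^[3] s = s := by decide +kernel

theorem w3_D4 : ([18, 14, 13, 12, 5, 9, 10, 11].map τ4).map (fun s => w3.foldr chevE7.reflectRoot s) =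
    [13, 14, 12, 18, 10, 9, 11, 5].map τ4 := by decide +kernel

/-- the subsystem `D₄` is orthogonal to the three roots -/
theorem orthD4 : ∀ i : Fin 3, ∀ r < chevD4.nroots, okQ chevE7 (r3 i) (τ4 r) = true := by decide +kernel

/-- the outer nodes are orthogonal -/
theorem outD4 : (okB chevE7 (τ4 18) (τ4 13) [] && (okB chevE7 (τ4 18) (τ4 12) [] && (okB chevE7 (τ4 13) (τ4 12) [] &&
    (okB chevE7 (τ4 5) (τ4 10) [] && (okB chevE7 (τ4 5) (τ4 11) [] && okB chevE7 (τ4 10) (τ4 11) []))))) = true := by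
  decide +kernel

end Cfsg.Agent.R2.E72T
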