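import Cfsg.Agent.R2.E72T.D4
import Cfsg.Agent.R2.E72T.Cyc
import Cfsg.Agent.R2.E72T.T9tab

/-!
# `L₂(8) × ³D₄(2)` in `E₇(2)`: the subgroups (S5934, box T9)
-/

set_option autoImplicit false
set_option linter.unusedSectionVars false

namespace Cfsg.Agent.R2.E72T

open Cfsg.Lie Cfsg.Agent.ChevalleyStructure Cfsg.Agent.ChevalleyStructure.Elts
open Cfsg.Agent.ChevalleyStructure.StBasic Cfsg.Agent.ChevalleyStructure.StTorus
open Cfsg.Agent.ChevalleyStructure.SL2Hom (up lo mem_closure_SL2)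
open Cfsg.Agent.Nodes.RGDFoldSL
open Cfsg.Agent.H420.PG
open scoped MatrixGroups

universe u v

section K

variable {K : Type u} [Field K] [CharP K 2]

/-- `Θ4` over one field -/
noncomputable abbrev Θd (K : Type u) [Field K] [CharP K 2] : chevD4.SteinbergGroup K →* GL chevE7.Idx K :=
  Θ4 (RingHom.id K)

theorem Θd_gen {r : ℕ} (hr : r < 24) (t : K) : Θd K (chevD4.stGen K r t) = xG hE7 (τ4 r) t :=
  subHom_stGen sub4 hE7 (RingHom.id K) (show r < chevD4.nroots from hr) t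

theorem τ4_lt {r : ℕ} (hr : r < 24) : τ4 r < 126 := sub4.lt (show r < chevD4.nroots from hr)

theorem rot (a b c : ℕ) (h : (a, b, c) = (18, 13, 12) ∨ (a, b, c) = (5, 10, 11)) :
    w3.foldr chevE7.reflectRoot (τ4 a) = τ4 b ∧ w3.foldr chevE7.reflectRoot (τ4 b) = τ4 c ∧
      w3.foldr chevE7.reflectRoot (τ4 c) = τ4 a := by
  have h1 := w3_D4
  simp only [List.map_cons, List.map_nil, List.cons.injEq, and_true] at h1
  obtain ⟨h18, -, h13, h12, h5, -, h10, h11⟩ := h1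
  rcases h with h | h
  · simp only [Prod.mk.injEq] at h
    obtain ⟨rfl, rfl, rfl⟩ := h
    exact ⟨h18, h13, h12⟩
  · simp only [Prod.mk.injEq] at h
    obtain ⟨rfl, rfl, rfl⟩ := h
    exact ⟨h5, h10, h11⟩

theorem mid (a : ℕ) (h : a = 14 ∨ a = 9) : w3.foldr chevE7.reflectRoot (τ4 a) = τ4 a := by
  have h1 := w3_D4
  simp only [List.map_cons, List.map_nil, List.cons.injEq, and_true] at h1
  obtain ⟨-, h14, -, -, -, h9, -, -⟩ := h1
  rcases h with rfl | rfl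
  · exact h14
  · exact h9

theorem outer_comm (a b c : ℕ) (h : (a, b, c) = (18, 13, 12) ∨ (a, b, c) = (5, 10, 11)) (t u : K) :
    Commute (xG hE7 (τ4 a) t) (xG hE7 (τ4 b) u) ∧ Commute (xG hE7 (τ4 a) t) (xG hE7 (τ4 c) u) ∧
      Commute (xG hE7 (τ4 b) t) (xG hE7 (τ4 c) u) := by
  have h1 := outD4
  simp only [Bool.and_eq_true] at h1
  obtain ⟨h1, h2, h3, h4, h5, h6⟩ := h1
  rcases h with h | h
  · simp only [Prod.mk.injEq] at h
    obtain ⟨rfl, rfl, rfl⟩ := h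
    exact ⟨comm_of hE7 h1 t u, comm_of hE7 h2 t u, comm_of hE7 h3 t u⟩
  · simp only [Prod.mk.injEq] at h
    obtain ⟨rfl, rfl, rfl⟩ := h
    exact ⟨comm_of hE7 h4 t u, comm_of hE7 h5 t u, comm_of hE7 h6 t u⟩

/-- the words of `³D₄` are fixed -/
theorem fix_word [Fintype K] (hK : Fintype.card K = 2 ^ 3) (w : List (ℕ × K)) (hw : w ∈ d4Words K 2) :
    sgk K w3 (Θd K (wd chevD4 w)) = Θd K (wd chevD4 w) := by
  rcases hw with ⟨t, ht, r, hr, rfl⟩ | ⟨t, rs, hrs, rfl⟩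
  · have hr' : r = 14 ∨ r = 9 := by simpa [d4p2, d4m2] using hr
    have hr24 : r < 24 := by rcases hr' with rfl | rfl <;> norm_num
    rw [wd_singleton, Θd_gen hr24, sgk_x w3_lt (τ4_lt hr24), mid r hr', ht]
  · obtain ⟨a, b, c⟩ := rs
    have h1 : (a, b, c) = (18, 13, 12) ∨ (a, b, c) = (5, 10, 11) := by
      simpa [d4p1, d4p3, d4p4, d4m1, d4m3, d4m4] using hrs
    have hlt : a < 24 ∧ b < 24 ∧ c < 24 := by
      rcases h1 with h1 | h1 <;> (simp only [Prod.mk.injEq] at h1; obtain ⟨rfl, rfl, rfl⟩ := h1; norm_num)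
    obtain ⟨ha, hb, hc⟩ := hlt
    obtain ⟨e1, e2, e3⟩ := rot a b c h1
    have e8 : ((t ^ 2 ^ 2) ^ 2 : K) = t := by
      rw [← pow_mul]
      have := FiniteField.pow_card t
      rw [hK] at this
      exact this
    have e0 : wd chevD4 [((a, b, c).1, t), ((a, b, c).2.1, t ^ 2), ((a, b, c).2.2, t ^ 2 ^ 2)] =
        chevD4.stGen K a t * (chevD4.stGen K b (t ^ 2) * chevD4.stGen K c (t ^ 2 ^ 2)) := by
      rw [wd_cons, wd_cons, wd_singleton]
    have e0' : Θd K (wd chevD4 [((a, b, c).1, t), ((a, b, c).2.1, t ^ 2), ((a, b, c).2.2, t ^ 2 ^ 2)]) =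
        xG hE7 (τ4 a) t * (xG hE7 (τ4 b) (t ^ 2) * xG hE7 (τ4 c) (t ^ 2 ^ 2)) := by
      rw [e0, map_mul, map_mul, Θd_gen ha, Θd_gen hb, Θd_gen hc]
    rw [e0', map_mul, map_mul,
      sgk_x w3_lt (τ4_lt ha), sgk_x w3_lt (τ4_lt hb), sgk_x w3_lt (τ4_lt hc), e1, e2, e3]
    show xG hE7 (τ4 b) (t ^ 2) * (xG hE7 (τ4 c) ((t ^ 2) ^ 2) * xG hE7 (τ4 a) ((t ^ 2 ^ 2) ^ 2)) =
      xG hE7 (τ4 a) t * (xG hE7 (τ4 b) (t ^ 2) * xG hE7 (τ4 c) (t ^ 2 ^ 2))
    rw [e8, show ((t ^ 2) ^ 2 : K) = t ^ 2 ^ 2 by rw [← pow_mul]; rfl]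
    have c1 := (outer_comm a b c h1 t (t ^ 2)).1
    have c2 := (outer_comm a b c h1 t (t ^ 2 ^ 2)).2.1
    rw [← mul_assoc, ← (c1.mul_right c2).eq]

/-- **`³D₄(2)`** -/
noncomputable def X9 (K : Type u) [Field K] [CharP K 2] : Subgroup (GL chevE7.Idx K) :=
  (stS chevD4 (d4Words K 2)).map (Θd K)

theorem X9_le [Fintype K] (hK : Fintype.card K = 2 ^ 3) : X9 K ≤ Pk K w3 := by
  rintro _ ⟨x, hx, rfl⟩
  rw [mem_Pk]
  exact ⟨subHom_mem sub4 hE7 _ x, fix_stS _ (fix_word hK) hx⟩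

/-- the isomorphism with `³D₄(2)` -/
noncomputable def X9Equiv (K : Type u) [Field K] [CharP K 2] : ↥(X9 K) ≃* ↥(twistedD4 K 2) :=
  ((stS chevD4 (d4Words K 2)).equivMapOfInjective _ (Θ4_injective (RingHom.id K))).symm.trans
    (stSEquiv hD4 (d4Words K 2) (thetaD4_injective K))

/-- **`L₂(8)`** -/
noncomputable def u9 (K : Type u) [Field K] [CharP K 2] : SL(2, K) →* GL chevE7.Idx K := uuk (RingHom.id K) orth3

theorem u9_mem [Fintype K] (hK : Fintype.card K = 2 ^ 3) (g : SL(2, K)) : u9 K g ∈ Pk K w3 := by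
  rw [mem_Pk]
  exact ⟨Psik_mem (r := r3) orth3 lt3 (dgk (RingHom.id K) 3 g), uuk_fix (RingHom.id K) hK orth3 w3_lt cyc3 g⟩

theorem u9_injective [Fintype K] (hK : Fintype.card K = 2 ^ 3) : Function.Injective (u9 K) :=
  uuk_injective (RingHom.id K) (by rw [hK]; norm_num) orth3
    (uuk_up_ne (RingHom.id K) orth3 lt3 act3 (by norm_num) nact3)

/-- `D₄(K)` commutes with the three root `SL₂`s -/
theorem Θd_comm_psi (x : chevD4.SteinbergGroup K) (i : Fin 3) (g : SL(2, K)) :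
    Commute (Θd K x) (psi hE7 K (r3 i) g) := by
  have h1 : (⊤ : Subgroup (chevD4.SteinbergGroup K)) ≤
      (Subgroup.centralizer {psi hE7 K (r3 i) g}).comap (Θd K) := by
    rw [← closure_stGen, Subgroup.closure_le]
    rintro _ ⟨r, t, hr, rfl⟩
    rw [SetLike.mem_coe, Subgroup.mem_comap, Subgroup.mem_centralizer_singleton_iff, Θd_gen hr]
    exact (psi_comm_x hE7 (orthD4 i r hr) g t).eq
  exact Subgroup.mem_centralizer_singleton_iff.1 (h1 (Subgroup.mem_top x))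

theorem Θd_comm_u9 (x : chevD4.SteinbergGroup K) (g : SL(2, K)) : Commute (Θd K x) (u9 K g) := by
  have h1 : Psik orth3 (dgk (RingHom.id K) 3 g) ∈ Subgroup.centralizer {Θd K x} := by
    refine Psik_mem_of orth3 _ fun i => ?_
    rw [Subgroup.mem_centralizer_singleton_iff]
    exact (Θd_comm_psi x i _).symm.eq
  exact (show Commute _ _ from Subgroup.mem_centralizer_singleton_iff.1 h1).symm

end K

end Cfsg.Agent.R2.E72T
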