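import Cfsg.Agent.R2.E72T.Tor
import Cfsg.Agent.R2.E72T.Cyc

/-!
# Products of three orthogonal root elements (S5934, box T)
-/

set_option autoImplicit false
set_option linter.unusedSectionVars false

namespace Cfsg.Agent.R2.E72T

open Cfsg.Lie Cfsg.Agent.ChevalleyStructure Cfsg.Agent.ChevalleyStructure.Elts
open Cfsg.Agent.ChevalleyStructure.SL2Hom (up lo mem_closure_SL2)
open Cfsg.Agent.Nodes.RGDFoldSL Cfsg.Agent.Nodes.RGDChev
open Cfsg.Agent.KFacts.RgdChevCoord
open Cfsg.Agent.H420.PG
open scoped MatrixGroups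

universe u

/-- roots detecting the coordinates of a product of three orthogonal root elements -/
def det3 (r s c : Fin 3 → ℕ) : Bool :=
  (List.finRange 3).all fun i => okB chevE7 (r i) (s i) [(c i, 1, 1)] && Nat.blt (c i) 126 &&
    (List.finRange 3).all fun j => i == j || okB chevE7 (r j) (s i) []

section Tri

variable {k : Type u} [Field k] [CharP k 2] {r s c : Fin 3 → ℕ}

theorem Psik_three (h : Orth r = true) (x : Fin 3 → SL(2, k)) :
    Psik h x = psi hE7 k (r 0) (x 0) * (psi hE7 k (r 1) (x 1) * psi hE7 k (r 2) (x 2)) := by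
  have h1 : x = Pi.mulSingle 0 (x 0) * (Pi.mulSingle 1 (x 1) * Pi.mulSingle 2 (x 2)) := by
    funext i
    fin_cases i
    · show x 0 = Pi.mulSingle (M := fun _ => SL(2, k)) 0 (x 0) 0 *
        (Pi.mulSingle (M := fun _ => SL(2, k)) 1 (x 1) 0 * Pi.mulSingle (M := fun _ => SL(2, k)) 2 (x 2) 0)
      rw [Pi.mulSingle_eq_same, Pi.mulSingle_eq_of_ne (by decide), Pi.mulSingle_eq_of_ne (by decide), mul_one, mul_one]
    · show x 1 = Pi.mulSingle (M := fun _ => SL(2, k)) 0 (x 0) 1 *
        (Pi.mulSingle (M := fun _ => SL(2, k)) 1 (x 1) 1 * Pi.mulSingle (M := fun _ => SL(2, k)) 2 (x 2) 1)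
      rw [Pi.mulSingle_eq_same, Pi.mulSingle_eq_of_ne (by decide), Pi.mulSingle_eq_of_ne (by decide), mul_one, one_mul]
    · show x 2 = Pi.mulSingle (M := fun _ => SL(2, k)) 0 (x 0) 2 *
        (Pi.mulSingle (M := fun _ => SL(2, k)) 1 (x 1) 2 * Pi.mulSingle (M := fun _ => SL(2, k)) 2 (x 2) 2)
      rw [Pi.mulSingle_eq_same, Pi.mulSingle_eq_of_ne (by decide), Pi.mulSingle_eq_of_ne (by decide), one_mul, one_mul]
  conv_lhs => rw [h1]
  rw [map_mul, map_mul, Psik_single, Psik_single, Psik_single]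

theorem up_add' (a b : k) : (up (a + b) : SL(2, k)) = up a * up b := by
  apply Subtype.ext
  rw [Matrix.SpecialLinearGroup.coe_mul]
  ext i j
  fin_cases i <;> fin_cases j <;> simp [up, Matrix.mul_apply, Fin.sum_univ_two, add_comm]

theorem Psik_up_eq_one (h : Orth r = true) (hr : ∀ i, r i < 126) (hd : det3 r s c = true) {x : Fin 3 → k}
    (hx : Psik h (fun i => up (x i)) = 1) (i : Fin 3) : x i = 0 := by
  have hd1 := List.all_eq_true.1 hd i (List.mem_finRange i)
  simp only [Bool.and_eq_true, Nat.blt_eq] at hd1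
  obtain ⟨⟨hs, hc⟩, ho⟩ := hd1
  have h4 : Psik h ((fun i => up (x i)) * (Pi.mulSingle i (up (x i)))⁻¹) ∈
      Subgroup.centralizer {xG hE7 (s i) (1 : k)} := by
    refine Psik_mem_of h _ fun j => ?_
    rw [Subgroup.mem_centralizer_singleton_iff]
    by_cases hj : j = i
    · subst hj
      rw [Pi.mul_apply, Pi.inv_apply, Pi.mulSingle_eq_same, mul_inv_cancel, map_one, one_mul, mul_one]
    · rw [Pi.mul_apply, Pi.inv_apply, Pi.mulSingle_eq_of_ne hj, inv_one, mul_one,
        psi_up hE7 (show r j < chevE7.nroots from hr j)]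
      have h5 := List.all_eq_true.1 ho j (List.mem_finRange j)
      rw [Bool.or_eq_true] at h5
      rcases h5 with h5 | h5
      · rw [beq_iff_eq] at h5
        exact absurd h5.symm hj
      · exact (comm_of hE7 h5 (x j) 1).eq
  have h3 : Psik h (fun i => up (x i)) = Psik h ((fun i => up (x i)) * (Pi.mulSingle i (up (x i)))⁻¹) *
      xG hE7 (r i) (x i) := by
    have e : (fun i => up (x i) : Fin 3 → SL(2, k)) =
        ((fun i => up (x i)) * (Pi.mulSingle i (up (x i)))⁻¹) * Pi.mulSingle i (up (x i)) := by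
      rw [inv_mul_cancel_right]
    conv_lhs => rw [e]
    rw [map_mul, Psik_single, psi_up hE7 (show r i < chevE7.nroots from hr i)]
  rw [h3] at hx
  have h6 : Commute (xG hE7 (r i) (x i)) (xG hE7 (s i) 1) := by
    have h7 : xG hE7 (r i) (x i) = (Psik h ((fun i => up (x i)) * (Pi.mulSingle i (up (x i)))⁻¹))⁻¹ :=
      eq_inv_of_mul_eq_one_right hx
    rw [h7]
    exact (show Commute _ _ from Subgroup.mem_centralizer_singleton_iff.1 h4).inv_left
  have h8 := rel (F := k) hE7 hs (x i) 1
  rw [List.map_cons, List.map_nil, List.prod_cons, List.prod_nil, mul_one, h6.eq] at h8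
  have h9 : xG hE7 (c i) ((x i) ^ 1 * 1 ^ 1) = 1 := by
    have := mul_left_cancel (a := xG hE7 (s i) (1 : k) * xG hE7 (r i) (x i)) (b := 1)
      (c := xG hE7 (c i) ((x i) ^ 1 * 1 ^ 1)) (by rw [mul_one]; exact h8)
    exact this.symm
  rw [xG_eq_one_iff hE7 (show c i < chevE7.nroots from hc)] at h9
  simpa using h9

end Tri

section Fin

variable {K : Type u} [Field K] [Finite K] [CharP K 2] {r s c : Fin 3 → ℕ}

/-- A torus element commuting with a product of three orthogonal root elements. -/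
theorem rv_three (h : Orth r = true) (hr : ∀ i, r i < 126) (hd : det3 r s c = true)
    {t : ↥(chevE7.group K)} (ht : t ∈ TT chevE7 K)
    (hc : (t : GL chevE7.Idx K) * Psik h (fun _ => up (1 : K)) = Psik h (fun _ => up (1 : K)) * (t : GL chevE7.Idx K))
    (i : Fin 3) : rv t (r i) = 1 := by
  have h1 : (t : GL chevE7.Idx K) * Psik h (fun _ => up (1 : K)) * (t : GL chevE7.Idx K)⁻¹ =
      Psik h (fun i => up (rv t (r i))) := by
    rw [Psik_three, Psik_three]
    simp only [psi_up hE7 (show r 0 < chevE7.nroots from hr 0), psi_up hE7 (show r 1 < chevE7.nroots from hr 1),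
      psi_up hE7 (show r 2 < chevE7.nroots from hr 2)]
    have e0 := rv_act ht (hr 0) 1
    have e1 := rv_act ht (hr 1) 1
    have e2 := rv_act ht (hr 2) 1
    rw [mul_one] at e0 e1 e2
    rw [← e0, ← e1, ← e2]
    group
  rw [mul_inv_eq_iff_eq_mul.2 hc] at h1
  have h2 : Psik h (fun i => up (rv t (r i) + 1)) = 1 := by
    have e : (fun i => up (rv t (r i) + 1) : Fin 3 → SL(2, K)) =
        (fun i => up (rv t (r i))) * fun _ => up (1 : K) := by
      funext i
      rw [up_add']
      rfl
    rw [e, map_mul, ← h1, ← map_mul]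
    have e2 : ((fun _ => up (1 : K)) * fun _ => up (1 : K) : Fin 3 → SL(2, K)) = 1 := by
      funext i
      show up (1 : K) * up 1 = 1
      rw [← up_add', CharTwo.add_self_eq_zero]
      apply Subtype.ext
      ext i j
      fin_cases i <;> fin_cases j <;> simp [up]
    rw [e2, map_one]
  have h3 := Psik_up_eq_one h hr hd h2 i
  rwa [CharTwo.add_eq_zero] at h3

end Fin

end Cfsg.Agent.R2.E72T
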