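import Cfsg.Agent.R2.E72T.T9tab
import Cfsg.Agent.R2.E72T.Tri

/-!
# `L₂(8) × ³D₄(2)` in `E₇(2)`: tables for the centralisers (S5934, box T9)
-/

set_option autoImplicit false
set_option linter.unusedSectionVars false

namespace Cfsg.Agent.R2.E72T

open Cfsg.Lie Cfsg.Agent.ChevalleyStructure Cfsg.Agent.ChevalleyStructure.Elts
open Cfsg.Agent.ChevalleyStructure.RootVec
open Cfsg.Agent.Nodes.RGDChev
open Cfsg.Agent.H420.PG

/-- the outer simple roots of `D₄` -/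
def rO : Fin 3 → ℕ := ![78, 66, 73]

/-- their negatives -/
def rO' : Fin 3 → ℕ := ![47, 59, 52]

theorem orthO : Orth rO = true := by decide +kernel

theorem ltO : ∀ i, rO i < 126 := by decide +kernel

theorem negO : ∀ i, chevE7.neg (rO i) = rO' i := by decide +kernel

theorem τ4_O : τ4 18 = 78 ∧ τ4 13 = 66 ∧ τ4 12 = 73 ∧ τ4 5 = 47 ∧ τ4 10 = 59 ∧ τ4 11 = 52 ∧ τ4 14 = 69 ∧ τ4 9 = 56 := by
  decide +kernel

/-- the exponents of the torus element -/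
def e9 (s : ℕ) : ℤ := pr7 s 63 + 2 * pr7 s 92 + 4 * pr7 s 125

theorem e9_spec : ∀ s < 126, (7 : ℤ) ∣ e9 s → s ∈ l4 := by decide +kernel

theorem mem_l4 : ∀ s ∈ l4, ∃ r < 24, τ4 r = s := by decide +kernel

theorem det_r3 : det3 r3 ![64, 35, 6] ![65, 65, 98] = true := by decide +kernel

theorem det_rO : det3 rO ![4, 7, 1] ![8, 8, 2] = true := by decide +kernel

/-- the roots commuting -/
def LC : List ℕ := [69, 56, 84, 41, 87, 38, 63, 62, 92, 33, 125, 0]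

theorem LC_lt : ∀ r ∈ LC, r < 126 := by decide +kernel

theorem LC_neg : ∀ r ∈ LC, chevE7.neg r ∈ LC := by decide +kernel

theorem LC_cent : ∀ b < 126, (∀ r ∈ LC, 0 ≤ pr7 b r) → b ∈ ([] : List ℕ) := by decide +kernel

theorem refl69 : chevE7.reflectRoot 1 (chevE7.reflectRoot 4 (chevE7.reflectRoot 2 69)) = 84 ∧
    chevE7.reflectRoot 1 (chevE7.reflectRoot 4 (chevE7.reflectRoot 2 56)) = 41 ∧
    chevE7.reflectRoot 3 84 = 87 ∧ chevE7.reflectRoot 3 41 = 38 ∧ chevE7.simple 1 = 78 ∧ chevE7.simple 4 = 66 ∧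
    chevE7.simple 2 = 73 ∧ chevE7.simple 3 = 69 := by decide +kernel

/-- the roots where the values are 1 -/
def B9 : Fin 7 → ℕ := ![69, 78, 66, 73, 63, 92, 125]

/-- twice the simple roots -/
def A9 : Fin 7 → Fin 7 → ℤ := ![![-2, -1, -1, -2, 0, -1, 1], ![0, 2, 0, 0, 0, 0, 0], ![0, 0, 0, 2, 0, 0, 0],
  ![2, 0, 0, 0, 0, 0, 0], ![0, 0, 2, 0, 0, 0, 0], ![-2, -1, -2, -1, -1, 1, 0], ![0, 0, 0, 0, 2, 0, 0]]

theorem A9_spec : ∀ i j : Fin 7, ∑ k : Fin 7, A9 i k * vec chevE7 7 (B9 k) j = if i = j then 2 else 0 := by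
  decide +kernel

end Cfsg.Agent.R2.E72T
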