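import Cfsg.Agent.R2.E72T.T9a
import Cfsg.Agent.R2.E72T.T9tabB
import Cfsg.Agent.R2.E72T.Grp
import Cfsg.Agent.S1035

/-!
# `L₂(8) × ³D₄(2)` in `E₇(2)`: the torus element of order 7 (S5934, box T9)
-/

set_option autoImplicit false
set_option linter.unusedSectionVars false

namespace Cfsg.Agent.R2.E72T

open CoxeterSystem Cfsg.Agent.ChevalleyStructure.CoxeterGeom Cfsg.Agent.Tits.Roots Cfsg.Agent.Tits.Core
  Cfsg.Agent.Nodes.Reps Cfsg.Agent.Nodes.BNOf
open Cfsg.Lie Cfsg.Agent.ChevalleyStructure Cfsg.Agent.ChevalleyStructure.Elts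
open Cfsg.Agent.ChevalleyStructure.StBasic Cfsg.Agent.ChevalleyStructure.StTorus
open Cfsg.Agent.ChevalleyStructure.SL2Hom (up lo mem_closure_SL2)
open Cfsg.Agent.Nodes.RGDFoldSL Cfsg.Agent.Nodes.RGDChev
open Cfsg.Agent.KFacts.RgdChevCoord
open Cfsg.Agent.KFacts.RgdField (Coords Coord)
open Cfsg.Agent.H129.TorusChar (cX isMC_cX cX_vec cX_inj IsMC cX_pow)
open Cfsg.Agent.H420.PG
open Cfsg.Agent.BpExc.TorCent Cfsg.Agent.BpExc.TorChev
open scoped MatrixGroups

universe u v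

section K

variable {K : Type u} [Field K] [Fintype K] [CharP K 2]

theorem pow7 (hK : Fintype.card K = 2 ^ 3) {a : K} (ha : a ≠ 0) : a ^ 7 = 1 := by
  have := FiniteField.pow_card_sub_one_eq_one a ha
  rw [hK] at this
  exact this

theorem exists_ne7 (hK : Fintype.card K = 2 ^ 3) : ∃ a : K, a ≠ 0 ∧ a ≠ 1 := by
  by_contra h
  push Not at h
  classical
  have h1 : (Finset.univ : Finset K) ⊆ {0, 1} := by
    intro a _
    by_cases h0 : a = 0
    · simp [h0]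
    · simp [h a h0]
  have h2 := (Finset.card_le_card h1).trans Finset.card_le_two
  rw [Finset.card_univ, hK] at h2
  norm_num at h2

theorem zpow7 (hK : Fintype.card K = 2 ^ 3) {a : K} (ha : a ≠ 0) (h1 : a ≠ 1) {n : ℤ} (hn : a ^ n = 1) :
    (7 : ℤ) ∣ n := by
  have h2 : orderOf (Units.mk0 a ha) = 7 := by
    have : Fact (Nat.Prime 7) := ⟨by norm_num⟩
    refine orderOf_eq_prime ?_ fun h => h1 (congrArg Units.val h)
    apply Units.ext
    rw [Units.val_pow_eq_pow_val, Units.val_mk0, Units.val_one]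
    exact pow7 hK ha
  have h3 : (Units.mk0 a ha) ^ n = 1 := by
    apply Units.ext
    rw [Units.val_zpow_eq_zpow_val, Units.val_mk0, Units.val_one, hn]
  rw [← orderOf_dvd_iff_zpow_eq_one, h2] at h3
  exact_mod_cast h3

omit [Fintype K] in
theorem u9_eq (g : SL(2, K)) : u9 K g = psi hE7 K 63 g *
    (psi hE7 K 92 (Matrix.SpecialLinearGroup.map (frk (RingHom.id K) 1) g) *
      psi hE7 K 125 (Matrix.SpecialLinearGroup.map (frk (RingHom.id K) 2) g)) := by
  have h1 := Psik_three orth3 (dgk (RingHom.id K) 3 g)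
  have h2 : dgk (RingHom.id K) 3 g 0 = g := by
    rw [dgk_apply]
    apply Subtype.ext
    ext i j
    exact frk_zero (RingHom.id K) _
  rw [h2] at h1
  exact h1

omit [Fintype K] in
theorem u9_hS (a : K) : u9 K (hS a) = hG hE7 63 a * (hG hE7 92 (a ^ 2) * hG hE7 125 (a ^ 4)) := by
  rw [u9_eq, map_hS, map_hS, psi_hS hE7 (show 63 < chevE7.nroots by decide),
    psi_hS hE7 (show 92 < chevE7.nroots by decide), psi_hS hE7 (show 125 < chevE7.nroots by decide)]
  rfl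

omit [Fintype K] in
theorem u9_mem_group (g : SL(2, K)) : u9 K g ∈ chevE7.group K := Psik_mem (r := r3) orth3 lt3 (dgk (RingHom.id K) 3 g)

/-- the torus element -/
noncomputable def hh (a : K) : ↥(chevE7.group K) := ⟨u9 K (hS a), u9_mem_group _⟩

theorem hh_mem {a : K} (ha : a ≠ 0) : hh a ∈ TT chevE7 K := by
  rw [Subgroup.mem_subgroupOf]
  show u9 K (hS a) ∈ _
  rw [u9_hS]
  exact mul_mem (hG_mem_diagonal hE7 (by decide) ha) (mul_mem (hG_mem_diagonal hE7 (by decide) (pow_ne_zero _ ha))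
    (hG_mem_diagonal hE7 (by decide) (pow_ne_zero _ ha)))

theorem hh_rv {a : K} (ha : a ≠ 0) {s : ℕ} (hs : s < 126) : rv (hh a) s = a ^ e9 s := by
  have h1 := rv_act (hh_mem ha) hs 1
  have h2 := hG_conj7 (K := K) (r := 125) (by norm_num) (pow_ne_zero 4 ha) s hs 1
  have h3 := hG_conj7 (K := K) (r := 92) (by norm_num) (pow_ne_zero 2 ha) s hs ((a ^ 4) ^ pr7 s 125 * 1)
  have h4 := hG_conj7 (K := K) (r := 63) (by norm_num) ha s hs ((a ^ 2) ^ pr7 s 92 * ((a ^ 4) ^ pr7 s 125 * 1))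
  rw [← h3, ← h2] at h4
  have h5 : ((hh a : ↥(chevE7.group K)) : GL chevE7.Idx K) = hG hE7 63 a * (hG hE7 92 (a ^ 2) * hG hE7 125 (a ^ 4)) :=
    u9_hS a
  rw [h5] at h1
  have h6 : xG hE7 s (rv (hh a) s * 1) = xG hE7 s (a ^ pr7 s 63 * ((a ^ 2) ^ pr7 s 92 * ((a ^ 4) ^ pr7 s 125 * 1))) := by
    rw [← h1, ← h4]
    group
  have h7 := xG_injective hE7 (show s < chevE7.nroots from hs) h6
  rw [mul_one, mul_one] at h7
  rw [h7, e9, zpow_add₀ ha, zpow_add₀ ha, zpow_mul, zpow_mul, mul_assoc]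
  norm_cast

/-- `D₄(8)` -/
noncomputable def D9 (K : Type u) [Field K] [CharP K 2] : Subgroup ↥(chevE7.group K) :=
  (Θd K).range.subgroupOf (chevE7.group K)

theorem Θd_range_le : (Θd K).range ≤ chevE7.group K := by
  rintro _ ⟨x, rfl⟩
  exact subHom_mem sub4 hE7 _ x

theorem xG_mem_D9 {r : ℕ} (hr : r ∈ l4) (t : K) : xG hE7 r t ∈ (Θd K).range := by
  obtain ⟨s, hs, rfl⟩ := mem_l4 r hr
  exact ⟨chevD4.stGen K s t, Θd_gen hs t⟩

theorem TT_le_normalizer : TT chevE7 K ≤ Subgroup.normalizer (D9 K : Set ↥(chevE7.group K)) := by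
  intro t ht
  have key : ∀ t ∈ TT chevE7 K, ∀ x ∈ D9 K, t * x * t⁻¹ ∈ D9 K := by
    intro t ht x hx
    rw [D9, Subgroup.mem_subgroupOf] at hx ⊢
    obtain ⟨y, hy⟩ := hx
    have h1 : (⊤ : Subgroup (chevD4.SteinbergGroup K)) ≤
        (((Θd K).range).comap (MulAut.conj (t : GL chevE7.Idx K)).toMonoidHom).comap (Θd K) := by
      rw [← closure_stGen, Subgroup.closure_le]
      rintro _ ⟨r, u, hr, rfl⟩
      rw [SetLike.mem_coe, Subgroup.mem_comap, Subgroup.mem_comap, Θd_gen hr]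
      show (t : GL chevE7.Idx K) * xG hE7 (τ4 r) u * (t : GL chevE7.Idx K)⁻¹ ∈ _
      rw [rv_act ht (τ4_lt hr), ← Θd_gen hr]
      exact ⟨_, rfl⟩
    have h2 := h1 (Subgroup.mem_top y)
    rw [Subgroup.mem_comap, Subgroup.mem_comap, hy] at h2
    exact h2
  rw [Subgroup.mem_normalizer_iff]
  intro x
  refine ⟨fun hx => key t ht x hx, fun hx => ?_⟩
  have h1 := key t⁻¹ (inv_mem ht) _ hx
  have h2 : t⁻¹ * (t * x * t⁻¹) * t⁻¹⁻¹ = x := by group
  rwa [h2] at h1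

theorem card_D9 (hK : Fintype.card K = 2 ^ 3) :
    Nat.card (D9 K) = 8 ^ 12 * (8 ^ 2 - 1) * (8 ^ 4 - 1) * (8 ^ 4 - 1) * (8 ^ 6 - 1) := by
  have h1 : Nat.card (D9 K) = Nat.card (chevD4.SteinbergGroup K) := by
    have e1 : Nat.card (D9 K) = Nat.card (Θd K).range :=
      Nat.card_congr (Subgroup.subgroupOfEquivOfLe Θd_range_le).toEquiv
    rw [e1]
    exact (Nat.card_congr (MonoidHom.ofInjective (Θ4_injective (RingHom.id K))).toEquiv).symm
  have hb : Function.Bijective (StTheta.theta hD4 K) := by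
    refine ⟨?_, StTheta.theta_surjective hD4⟩
    intro a b hab
    apply thetaD4_injective K
    exact congrArg Subtype.val hab
  rw [h1, Nat.card_congr (MulEquiv.ofBijective _ hb).toEquiv]
  have h2 := Cfsg.Agent.S1061.result (F := K) (q := 8) (by rw [hK]; norm_num)
  norm_num at h2 ⊢
  exact h2

theorem card_TT (hK : Fintype.card K = 2 ^ 3) : Nat.card (TT chevE7 K) = 7 ^ 7 := by
  have h1 := Cfsg.Agent.S1035.result (F := K) (q := 8) (by rw [hK]; norm_num) (chevE7, Nat.gcd 2 (8 - 1)) (by simp)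
  have h2 : (chevE7.rank : ℕ) = 7 := rfl
  have h3 : Nat.card (TT chevE7 K) = Nat.card (chevE7.diagonalSubgroup K) :=
    Nat.card_congr (Subgroup.subgroupOfEquivOfLe (diagonal_le_group hE7 K)).toEquiv
  rw [h3]
  have h4 : Nat.gcd 2 (8 - 1) * Nat.card (chevE7.diagonalSubgroup K) = (8 - 1) ^ 7 := h1
  norm_num at h4 ⊢
  exact h4

/-- **The centraliser of the torus element of order 7.** -/
theorem pow_mem9 (hK : Fintype.card K = 2 ^ 3) {a : K} (ha : a ≠ 0) (h1 : a ≠ 1) {g : ↥(chevE7.group K)}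
    (hg : g ∈ Subgroup.centralizer {hh a}) : ∃ m : ℕ, g ^ 7 ^ m ∈ D9 K ⊔ TT chevE7 K := by
  obtain ⟨m, hm⟩ := exists_pow_mem (RK (K := K)) CK (hh_mem ha) (TT_comm hp7) (chAdd hp7 cE 2) (l := 7)
    (by norm_num) (fun b hb => pow7 hK ((CK.coord b hb).chi_ne_zero (hh_mem ha)))
    (g := g) (by rw [GG_top hp7 cE]; exact Subgroup.mem_top g) hg
  refine ⟨m, (sup_le_sup_right (RGD.Sup_le ?_) _) hm⟩
  rintro b ⟨hb, hb1⟩
  obtain ⟨r, hr, rfl⟩ := (isRoot_iff hp7 cE b).1 hb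
  have h2 : rv (hh a) r = 1 := by
    rw [rv, cX_vec hp7 (hh_mem ha) (show r < chevE7.nroots from hr)]
    exact hb1
  rw [hh_rv ha hr] at h2
  have h3 := e9_spec r hr (zpow7 hK ha h1 h2)
  intro u hu
  rw [Subgroup.mem_subgroupOf, XV_vec hp7 K hr, mem_rootSubgroup_iff hE7] at hu
  obtain ⟨t, ht⟩ := hu
  rw [D9, Subgroup.mem_subgroupOf, ht]
  exact xG_mem_D9 h3 t

end K

end Cfsg.Agent.R2.E72T
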