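import Cfsg.Agent.R2.E72T.T9b
import Cfsg.Agent.R2.E72T.BoxT10

/-!
# `L₂(8) × ³D₄(2)` in `E₇(2)`: the centralisers (S5934, box T9)
-/

set_option autoImplicit false
set_option linter.unusedSectionVars false

namespace Cfsg.Agent.R2.E72T

open CoxeterSystem Cfsg.Agent.ChevalleyStructure.CoxeterGeom Cfsg.Agent.Tits.Roots Cfsg.Agent.Tits.Core
  Cfsg.Agent.Nodes.Reps Cfsg.Agent.Nodes.BNOf
open Cfsg.Lie Cfsg.Agent.ChevalleyStructure Cfsg.Agent.ChevalleyStructure.Elts
open Cfsg.Agent.ChevalleyStructure.StBasic Cfsg.Agent.ChevalleyStructure.StTorus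
open Cfsg.Agent.ChevalleyStructure.SL2Hom (up lo mem_closure_SL2)
open Cfsg.Agent.Nodes.RGDFoldSL Cfsg.Agent.Nodes.RGDChev
open Cfsg.Agent.KFacts.RgdChevCoord
open Cfsg.Agent.KFacts.RgdField (Coords Coord)
open Cfsg.Agent.H129.TorusChar (cX isMC_cX cX_vec cX_inj IsMC cX_pow cX_one)
open Cfsg.Agent.H420.PG
open Cfsg.Agent.R2.H27
open scoped MatrixGroups

universe u v

section K

variable {K : Type u} [Field K] [CharP K 2]

theorem mem_X9_of {w : List (ℕ × K)} (hw : w ∈ d4Words K 2) : Θd K (wd chevD4 w) ∈ X9 K :=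
  ⟨wd chevD4 w, Subgroup.subset_closure ⟨w, hw, rfl⟩, rfl⟩

theorem x_mem_X9 {r : ℕ} (hr : r = 14 ∨ r = 9) : xG hE7 (τ4 r) (1 : K) ∈ X9 K := by
  have h1 : [(r, (1 : K))] ∈ d4Words K 2 := Or.inl ⟨1, one_pow _, r, by simpa [d4p2, d4m2] using hr, rfl⟩
  have h2 := mem_X9_of h1
  rwa [wd_singleton, Θd_gen (by rcases hr with rfl | rfl <;> norm_num)] at h2

theorem out_mem_X9 {a b c : ℕ} (h : (a, b, c) = (18, 13, 12) ∨ (a, b, c) = (5, 10, 11)) :
    xG hE7 (τ4 a) (1 : K) * (xG hE7 (τ4 b) 1 * xG hE7 (τ4 c) 1) ∈ X9 K := by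
  have h1 : [((a, b, c).1, (1 : K)), ((a, b, c).2.1, (1 : K) ^ 2), ((a, b, c).2.2, (1 : K) ^ 2 ^ 2)] ∈ d4Words K 2 :=
    Or.inr ⟨1, (a, b, c), by simpa [d4p1, d4p3, d4p4, d4m1, d4m3, d4m4] using h, rfl⟩
  have hlt : a < 24 ∧ b < 24 ∧ c < 24 := by
    rcases h with h1 | h1 <;> (simp only [Prod.mk.injEq] at h1; obtain ⟨rfl, rfl, rfl⟩ := h1; norm_num)
  have h2 := mem_X9_of h1
  rw [wd_cons, wd_cons, wd_singleton, map_mul, map_mul, Θd_gen hlt.1, Θd_gen hlt.2.1, Θd_gen hlt.2.2] at h2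
  simpa using h2

theorem outer_up : Psik orthO (fun _ => up (1 : K)) ∈ X9 K := by
  rw [Psik_three, psi_up hE7 (show rO 0 < chevE7.nroots from ltO 0), psi_up hE7 (show rO 1 < chevE7.nroots from ltO 1),
    psi_up hE7 (show rO 2 < chevE7.nroots from ltO 2)]
  have h1 := out_mem_X9 (K := K) (a := 18) (b := 13) (c := 12) (Or.inl rfl)
  obtain ⟨e1, e2, e3, -⟩ := τ4_O
  rw [e1, e2, e3] at h1
  exact h1

theorem outer_lo : Psik orthO (fun _ => lo (1 : K)) ∈ X9 K := by
  rw [Psik_three, psi_lo hE7 (show rO 0 < chevE7.nroots from ltO 0), psi_lo hE7 (show rO 1 < chevE7.nroots from ltO 1),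
    psi_lo hE7 (show rO 2 < chevE7.nroots from ltO 2), negO, negO, negO]
  have h1 := out_mem_X9 (K := K) (a := 5) (b := 10) (c := 11) (Or.inr rfl)
  obtain ⟨-, -, -, e1, e2, e3, -⟩ := τ4_O
  rw [e1, e2, e3] at h1
  exact h1

theorem wS_one : (wS (1 : K) : SL(2, K)) = up 1 * (lo 1 * up 1) := by
  rw [wS, inv_one, CharTwo.neg_eq]

theorem outer_w : Psik orthO (fun _ => wS (1 : K)) ∈ X9 K := by
  have e : (fun _ => wS (1 : K) : Fin 3 → SL(2, K)) = (fun _ => up 1) * ((fun _ => lo 1) * fun _ => up 1) := by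
    funext i
    exact wS_one
  rw [e, map_mul, map_mul]
  exact mul_mem outer_up (mul_mem outer_lo outer_up)

theorem outer_w_eq : Psik orthO (fun _ => wS (1 : K)) =
    nG hE7 (chevE7.simple 1) 1 * (nG hE7 (chevE7.simple 4) 1 * nG hE7 (chevE7.simple 2) 1) := by
  rw [Psik_three, psi_wS hE7 (show rO 0 < chevE7.nroots from ltO 0), psi_wS hE7 (show rO 1 < chevE7.nroots from ltO 1),
    psi_wS hE7 (show rO 2 < chevE7.nroots from ltO 2)]
  obtain ⟨-, -, -, -, e1, e4, e2, -⟩ := refl69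
  rw [e1, e4, e2]
  rfl

theorem outer_w_conj {s : ℕ} (hs : s < 126) (t : K) :
    Psik orthO (fun _ => wS (1 : K)) * xG hE7 s t * (Psik orthO (fun _ => wS (1 : K)))⁻¹ =
      xG hE7 (chevE7.reflectRoot 1 (chevE7.reflectRoot 4 (chevE7.reflectRoot 2 s))) t := by
  have l2 := refl_lt7 2 (by norm_num) s hs
  have l4 := refl_lt7 4 (by norm_num) _ l2
  have h1 := nG_conj_two (F := K) hE7 (i := 2) (by decide) (show s < chevE7.nroots from hs) t
  have h2 := nG_conj_two (F := K) hE7 (i := 4) (by decide) (show _ < chevE7.nroots from l2) t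
  have h3 := nG_conj_two (F := K) hE7 (i := 1) (by decide) (show _ < chevE7.nroots from l4) t
  rw [outer_w_eq, ← h3, ← h2, ← h1]
  group

theorem w4_mem : nG hE7 (chevE7.simple 3) (1 : K) ∈ X9 K := by
  obtain ⟨-, -, -, -, -, -, e1, e2⟩ := τ4_O
  have hs : chevE7.simple 3 = 69 := refl69.2.2.2.2.2.2.2
  have hn : chevE7.neg 69 = 56 := by decide +kernel
  rw [hs, ← psi_wS hE7 (show 69 < chevE7.nroots by decide), wS_one, map_mul, map_mul,
    psi_up hE7 (show 69 < chevE7.nroots by decide), psi_lo hE7 (show 69 < chevE7.nroots by decide), hn, ← e1, ← e2]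
  exact mul_mem (x_mem_X9 (Or.inl rfl)) (mul_mem (x_mem_X9 (Or.inr rfl)) (x_mem_X9 (Or.inl rfl)))

/-- the long root elements of `³D₄(2)` -/
theorem long_mem {r : ℕ} (hr : r ∈ [69, 56, 84, 41, 87, 38]) : xG hE7 r (1 : K) ∈ X9 K := by
  obtain ⟨-, -, -, -, -, -, e1, e2⟩ := τ4_O
  have h69 : xG hE7 69 (1 : K) ∈ X9 K := by rw [← e1]; exact x_mem_X9 (Or.inl rfl)
  have h56 : xG hE7 56 (1 : K) ∈ X9 K := by rw [← e2]; exact x_mem_X9 (Or.inr rfl)
  obtain ⟨f1, f2, f3, f4, -⟩ := refl69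
  have h84 : xG hE7 84 (1 : K) ∈ X9 K := by
    rw [← f1, ← outer_w_conj (by norm_num)]
    exact mul_mem (mul_mem outer_w h69) (inv_mem outer_w)
  have h41 : xG hE7 41 (1 : K) ∈ X9 K := by
    rw [← f2, ← outer_w_conj (by norm_num)]
    exact mul_mem (mul_mem outer_w h56) (inv_mem outer_w)
  have h87 : xG hE7 87 (1 : K) ∈ X9 K := by
    rw [← f3, ← nG_conj_two hE7 (i := 3) (by decide) (show 84 < chevE7.nroots by decide)]
    exact mul_mem (mul_mem w4_mem h84) (inv_mem w4_mem)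
  have h38 : xG hE7 38 (1 : K) ∈ X9 K := by
    rw [← f4, ← nG_conj_two hE7 (i := 3) (by decide) (show 41 < chevE7.nroots by decide)]
    exact mul_mem (mul_mem w4_mem h41) (inv_mem w4_mem)
  simp only [List.mem_cons, List.not_mem_nil, or_false] at hr
  rcases hr with rfl | rfl | rfl | rfl | rfl | rfl <;> assumption

end K

section Fin

variable {K : Type u} [Field K] [Fintype K] [CharP K 2]

theorem rv_neg_root {t : ↥(chevE7.group K)} (ht : t ∈ TT chevE7 K) {r : ℕ} (hr : r < 126) (h : rv t r = 1) :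
    rv t (chevE7.neg r) = 1 := by
  rw [rv, vec_neg hp7 (show r < chevE7.nroots from hr), (isMC_cX hp7 ht).neg]
  rw [rv] at h
  rw [h, inv_one]

theorem comm_of_rv {t : ↥(chevE7.group K)} (ht : t ∈ TT chevE7 K) {r : ℕ} (hr : r < 126) (h : rv t r = 1) :
    (t : GL chevE7.Idx K) * xG hE7 r (1 : K) = xG hE7 r (1 : K) * (t : GL chevE7.Idx K) := by
  have h1 := rv_act ht hr 1
  rw [h, mul_one, mul_inv_eq_iff_eq_mul] at h1
  exact h1

theorem Rt_nil : Rt K [] = ⊥ := by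
  rw [Rt, Subgroup.closure_eq_bot_iff]
  rintro g ⟨r, hr, -⟩
  exact absurd hr List.not_mem_nil

/-- **An element of `D₄(8) T` centralising `³D₄(2)` and `L₂(8)` is trivial.** -/
theorem eq_one9 {g : ↥(chevE7.group K)} (hg : g ∈ D9 K ⊔ TT chevE7 K)
    (hX : ∀ x ∈ X9 K, (g : GL chevE7.Idx K) * x = x * g)
    (hY : ∀ y : SL(2, K), (g : GL chevE7.Idx K) * u9 K y = u9 K y * g) : g = 1 := by
  have hg' : g ∈ ((D9 K ⊔ TT chevE7 K : Subgroup ↥(chevE7.group K)) : Set ↥(chevE7.group K)) := hg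
  rw [Subgroup.coe_mul_of_right_le_normalizer_left _ _ TT_le_normalizer, Set.mem_mul] at hg'
  obtain ⟨d, hd, t, ht, rfl⟩ := hg'
  have ht : t ∈ TT chevE7 K := ht
  have hdc : ∀ (i : Fin 3) (y : SL(2, K)), (d : GL chevE7.Idx K) * psi hE7 K (r3 i) y = psi hE7 K (r3 i) y * d := by
    intro i y
    obtain ⟨z, hz⟩ := (Subgroup.mem_subgroupOf.1 hd : (d : GL chevE7.Idx K) ∈ (Θd K).range)
    rw [← hz]
    exact (Θd_comm_psi z i y).eq
  -- `t` commutes with the product of the root elements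
  have htc : (t : GL chevE7.Idx K) * Psik orth3 (fun _ => up (1 : K)) = Psik orth3 (fun _ => up (1 : K)) * t := by
    have h1 : Psik orth3 (fun _ => up (1 : K)) = u9 K (up 1) := by
      show _ = Psik orth3 (dgk (RingHom.id K) 3 (up 1))
      congr 1
      funext i
      rw [dgk_apply, map_up, map_one]
    have h2 : Commute (d : GL chevE7.Idx K) (Psik orth3 (fun _ => up (1 : K))) := by
      have h3 : Psik orth3 (fun _ => up (1 : K)) ∈ Subgroup.centralizer {(d : GL chevE7.Idx K)} := by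
        refine Psik_mem_of orth3 _ fun i => ?_
        rw [Subgroup.mem_centralizer_singleton_iff]
        exact (hdc i _).symm
      exact (Subgroup.mem_centralizer_singleton_iff.1 h3).symm
    have h4 := hY (up 1)
    rw [← h1, Subgroup.coe_mul] at h4
    have h5 : (t : GL chevE7.Idx K) = (d : GL chevE7.Idx K)⁻¹ * (d * t) := by group
    rw [h5]
    exact (h2.inv_left.mul_left h4).eq
  have hrv : ∀ i, rv t (r3 i) = 1 := rv_three orth3 lt3 det_r3 ht htc
  -- `g` commutes with the root elements of `LC`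
  have hcomm : ∀ r ∈ LC, ((d * t : ↥(chevE7.group K)) : GL chevE7.Idx K) * xG hE7 r (1 : K) =
      xG hE7 r (1 : K) * ((d * t : ↥(chevE7.group K)) : GL chevE7.Idx K) := by
    have hpos : ∀ i : Fin 3, ((d * t : ↥(chevE7.group K)) : GL chevE7.Idx K) * xG hE7 (r3 i) (1 : K) =
        xG hE7 (r3 i) (1 : K) * ((d * t : ↥(chevE7.group K)) : GL chevE7.Idx K) := by
      intro i
      have h1 := hdc i (up 1)
      rw [psi_up hE7 (show r3 i < chevE7.nroots from lt3 i)] at h1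
      have h2 := comm_of_rv ht (lt3 i) (hrv i)
      rw [Subgroup.coe_mul]
      exact ((show Commute _ _ from h1).mul_left h2).eq
    have hneg : ∀ i : Fin 3, ((d * t : ↥(chevE7.group K)) : GL chevE7.Idx K) * xG hE7 (chevE7.neg (r3 i)) (1 : K) =
        xG hE7 (chevE7.neg (r3 i)) (1 : K) * ((d * t : ↥(chevE7.group K)) : GL chevE7.Idx K) := by
      intro i
      have h1 := hdc i (lo 1)
      rw [psi_lo hE7 (show r3 i < chevE7.nroots from lt3 i)] at h1
      have h2 := comm_of_rv ht (neg_lt7 (lt3 i)) (rv_neg_root ht (lt3 i) (hrv i))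
      rw [Subgroup.coe_mul]
      exact ((show Commute _ _ from h1).mul_left h2).eq
    intro r hr
    have h0 : r ∈ [69, 56, 84, 41, 87, 38] ∨ (∃ i, r3 i = r) ∨ ∃ i, chevE7.neg (r3 i) = r := by
      revert r
      decide +kernel
    rcases h0 with h0 | ⟨i, rfl⟩ | ⟨i, rfl⟩
    · exact hX _ (long_mem h0)
    · exact hpos i
    · exact hneg i
  obtain ⟨t', ht', h1, q, hq, hgt⟩ := cent_one LC_lt LC_neg LC_cent hcomm
  rw [Rt_nil, Subgroup.mem_bot] at hq
  rw [hq, mul_one] at hgt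
  rw [hgt] at hX ⊢
  have h2 := rv_three orthO ltO det_rO ht' (hX _ outer_up)
  have h3 : ∀ k : Fin 7, rv t' (B9 k) = 1 := by
    intro k
    fin_cases k
    · exact h1 69 (by decide)
    · exact h2 0
    · exact h2 1
    · exact h2 2
    · exact h1 63 (by decide)
    · exact h1 92 (by decide)
    · exact h1 125 (by decide)
  have hM := isMC_cX hp7 ht'
  refine cX_inj hp7 ht' (one_mem _) fun i => ?_
  rw [cX_one]
  have h4 : (2 : ℤ) • (sr i : Fin 7 → ℤ) = ∑ k : Fin 7, A9 i k • vec chevE7 7 (B9 k) := by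
    funext j
    rw [Finset.sum_apply]
    have h5 := A9_spec i j
    simp only [Pi.smul_apply, smul_eq_mul]
    rw [h5]
    by_cases hij : i = j
    · subst hij; rw [sr_self]; simp
    · rw [sr_ne (Ne.symm hij)]; simp [hij]
  have h5 := hM.zsmul 2 (sr i)
  rw [h4, hM.sum_smul] at h5
  have h8 : ∀ k ∈ (Finset.univ : Finset (Fin 7)), cX hp7 t' (vec chevE7 7 (B9 k)) ^ A9 i k = 1 := by
    intro k _
    have h9 : cX hp7 t' (vec chevE7 7 (B9 k)) = 1 := h3 k
    rw [h9, one_zpow]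
  rw [Finset.prod_congr rfl h8, Finset.prod_const_one] at h5
  have h6 : (cX hp7 t' (sr i) - 1) ^ 2 = 0 := by
    have h7 : cX hp7 t' (sr i) ^ 2 = 1 := by exact_mod_cast h5.symm
    rw [sub_sq, h7, one_pow, mul_one, CharTwo.two_eq_zero, zero_mul, sub_zero, CharTwo.add_self_eq_zero]
  exact sub_eq_zero.1 (pow_eq_zero_iff two_ne_zero |>.1 h6)

end Fin

end Cfsg.Agent.R2.E72T
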